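import Mathlib
import Cfsg.Agent.Lib.Helper32.D8Stmt
import Cfsg.Agent.Lib.CT.Orth

/-!
# S3716 / MOD9: the degree congruence

By IP on both sides the four multiplicities of `χ` add up to `conj (χ x) + conj (χ (x*y))`,
and `χ 1 + 4 χ x + 4 χ (x*y)` is the sum of `χ` over `T`, i.e. 9 times a natural number.
-/

set_option autoImplicit false

namespace Cfsg.Agent.Lib.Helper1.D8MOD9

open Cfsg Cfsg.Agent.Lib.Helper32.D8Stmt
open scoped ComplexConjugate

universe u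

/-- The sum of a character over a subgroup is the order of the subgroup times a natural
number. -/
theorem char_sum_sub {G : Type u} [Group G] {χ : G → ℂ} (hχ : IsCharacter G χ)
    (Q : Subgroup G) [Fintype Q] :
    ∃ m : ℕ, ∑ w : Q, χ (w : G) = (Nat.card Q : ℂ) * m := by
  obtain ⟨n, ρ, rfl⟩ := hχ
  have hne : (Nat.card Q : ℂ) ≠ 0 := Nat.cast_ne_zero.mpr Nat.card_pos.ne'
  have : Invertible (Nat.card Q : ℂ) := invertibleOfNonzero hne
  let σ : Representation ℂ Q (Fin n → ℂ) := ρ.comp Q.subtype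
  have h := Representation.card_inv_mul_sum_char_eq_finrank σ
  refine ⟨Module.finrank ℂ (Representation.invariants σ), ?_⟩
  rw [← h, ← mul_assoc, mul_inv_cancel₀ hne, one_mul]
  rfl

theorem main (hIP : IP.{u}) (hDUAL : DUAL.{u}) (hNF : NF.{u}) : MOD9.{u} := by
  intro G _ _ T N x y a b w hC f g hO f' g' hO' χ hχ
  classical
  have hcl : IsClassFunction G χ := Cfsg.Agent.Lib.CT.Orth.irr_isClassFunction ⟨χ, hχ⟩
  have hone : conj (χ 1) = χ 1 := Cfsg.Agent.Lib.CT.Orth.irr_conj_apply_one ⟨χ, hχ⟩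
  have hchar : IsCharacter G χ := by
    obtain ⟨n, ρ, _, h⟩ := hχ
    exact ⟨n, ρ, h⟩
  obtain ⟨hT, -, huniq, -⟩ := hNF hC
  have hx2 : x ^ 2 = x⁻¹ := by
    rw [eq_inv_iff_mul_eq_one, ← pow_succ]; exact hC.x3
  have hy2 : y ^ 2 = y⁻¹ := by
    rw [eq_inv_iff_mul_eq_one, ← pow_succ]; exact hC.y3
  have e1 : χ y = χ x := by rw [← hC.wx]; exact hcl x w
  have e2 : χ y⁻¹ = χ x := by rw [← hC.by_, hcl y b]; exact e1
  have e3 : χ x⁻¹ = χ x := by rw [← hC.ax]; exact hcl x a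
  have hay : a * y * a⁻¹ = y := by rw [hC.ay, mul_inv_cancel_right]
  have hbx : b * x * b⁻¹ = x := by rw [hC.bx, mul_inv_cancel_right]
  have e4 : χ (x * y⁻¹) = χ (x * y) := by
    have h : b * (x * y) * b⁻¹ = x * y⁻¹ := by
      calc b * (x * y) * b⁻¹ = (b * x * b⁻¹) * (b * y * b⁻¹) := by group
        _ = x * y⁻¹ := by rw [hbx, hC.by_]
    rw [← h]; exact hcl _ b
  have e5 : χ (x⁻¹ * y) = χ (x * y) := by
    have h : a * (x * y) * a⁻¹ = x⁻¹ * y := by
      calc a * (x * y) * a⁻¹ = (a * x * a⁻¹) * (a * y * a⁻¹) := by group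
        _ = x⁻¹ * y := by rw [hay, hC.ax]
    rw [← h]; exact hcl _ a
  have e6 : χ (x⁻¹ * y⁻¹) = χ (x * y) := by
    have h : (a * b) * (x * y) * (a * b)⁻¹ = x⁻¹ * y⁻¹ := by
      calc (a * b) * (x * y) * (a * b)⁻¹
          = (a * (b * x * b⁻¹) * a⁻¹) * (a * (b * y * b⁻¹) * a⁻¹) := by group
        _ = (a * x * a⁻¹) * (a * y * a⁻¹)⁻¹ := by rw [hbx, hC.by_]; group
        _ = x⁻¹ * y⁻¹ := by rw [hay, hC.ax]
    rw [← h]; exact hcl _ (a * b)
  have : Fintype T := Fintype.ofFinite T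
  obtain ⟨m, hm⟩ := char_sum_sub hchar T
  let e : Fin 3 × Fin 3 → T :=
    fun p => ⟨x ^ (p.1 : ℕ) * y ^ (p.2 : ℕ), (hT _).2 ⟨_, _, rfl⟩⟩
  have hinj : Function.Injective e := by
    rintro ⟨i, j⟩ ⟨i', j'⟩ h
    have h' : x ^ (i : ℕ) * y ^ (j : ℕ) = x ^ (i' : ℕ) * y ^ (j' : ℕ) :=
      congrArg Subtype.val h
    obtain ⟨h1, h2, -⟩ := huniq i j 0 0 0 i' j' 0 0 0 (by simpa using h')
    have hi : (i : ℕ) = i' := by
      have := i.2; have := i'.2; omega
    have hj : (j : ℕ) = j' := by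
      have := j.2; have := j'.2; omega
    exact Prod.ext (Fin.ext hi) (Fin.ext hj)
  have hbij : Function.Bijective e := by
    rw [Fintype.bijective_iff_injective_and_card]
    refine ⟨hinj, ?_⟩
    rw [Fintype.card_prod, Fintype.card_fin, ← Nat.card_eq_fintype_card, hC.cardT]
  have hsumT : ∑ t : T, χ (t : G) = χ 1 + 4 * χ x + 4 * χ (x * y) := by
    rw [← hbij.sum_comp (fun t : T => χ (t : G))]
    rw [Fintype.sum_prod_type]
    simp only [e, Fin.sum_univ_three, Fin.val_zero, Fin.val_one, Fin.val_two, pow_zero, pow_one,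
      one_mul, mul_one, hx2, hy2, e1, e2, e3, e4, e5, e6]
    ring
  have hkey : χ 1 + 4 * conj (χ x) + 4 * conj (χ (x * y)) = 9 * (m : ℂ) := by
    have h := congrArg conj (hsumT.symm.trans hm)
    rw [hC.cardT] at h
    simpa [hone, Complex.conj_ofNat] using h
  have hxyx : χ (x * y * (x * y⁻¹)) = χ x := by
    have h : x * y * (x * y⁻¹) = x⁻¹ := by
      calc x * y * (x * y⁻¹) = x * (y * x) * y⁻¹ := by group
        _ = x * (x * y) * y⁻¹ := by rw [hC.xy]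
        _ = x ^ 2 := by rw [mul_assoc, mul_assoc, mul_inv_cancel, mul_one, pow_two]
        _ = x⁻¹ := hx2
    rw [h, e3]
  obtain ⟨i1, i2⟩ := hIP hC f g hO χ hcl
  obtain ⟨i3, i4⟩ := hIP (hDUAL hC).1 f' g' hO' χ hcl
  refine ⟨(m : ℤ), ?_⟩
  rw [i1, i2, i3, i4, hxyx]
  push_cast
  rw [← hkey]
  ring

end Cfsg.Agent.Lib.Helper1.D8MOD9
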