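import Mathlib
import Cfsg.Agent.Lib.Helper32.D8Stmt

set_option autoImplicit false

/-! Piece ZERO of S3716: `th1`, `th2` vanish at elements of order at most 2.
For `c ∈ C_G(x)` with `c² = 1`: `f c = (f x)^i` has order dividing 3 and 2, so `f c = 1` and
`ph1 c = ph2 c = 0`; every term of the induction formula vanishes. -/

namespace Cfsg.Agent.Lib.Helper1.D8ZERO

open Cfsg Cfsg.Agent.Lib.Helper32.D8Stmt

universe u

theorem main (hNF : NF.{u}) : ZERO.{u} := by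
  intro G _ _ T N x y a b w hC f g hOm u hu
  obtain ⟨-, -, -, -, hNF5, hNF6, -⟩ := hNF (G := G) hC
  have hx : x ∈ Subgroup.centralizer ({x} : Set G) := by
    rw [Subgroup.mem_centralizer_iff]
    intro h hh
    rw [Set.mem_singleton_iff] at hh
    rw [hh]
  have hζ3 : f ⟨x, hx⟩ ^ 3 = 1 := by
    rw [← map_pow]
    have h1 : (⟨x, hx⟩ : Subgroup.centralizer ({x} : Set G)) ^ 3 = 1 := Subtype.ext hC.x3
    rw [h1, map_one]
  -- `f c = 1` for `c ∈ C_G(x)` with `c² = 1`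
  have hf1 : ∀ (c : G) (hc : c ∈ Subgroup.centralizer ({x} : Set G)), c ^ 2 = 1 →
      f ⟨c, hc⟩ = 1 := by
    intro c hc hc2
    obtain ⟨i, j, l, rfl⟩ := (hNF5 c).mp hc
    have hfc := (hNF6 f g hOm i j l hc hx).1
    have h2 : f ⟨x ^ i * y ^ j * b ^ l, hc⟩ ^ 2 = 1 := by
      rw [← map_pow]
      have h1 : (⟨x ^ i * y ^ j * b ^ l, hc⟩ : Subgroup.centralizer ({x} : Set G)) ^ 2 = 1 :=
        Subtype.ext hc2
      rw [h1, map_one]
    have h3 : f ⟨x ^ i * y ^ j * b ^ l, hc⟩ ^ 3 = 1 := by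
      rw [hfc, ← pow_mul, mul_comm, pow_mul, hζ3, one_pow]
    have h4 : f ⟨x ^ i * y ^ j * b ^ l, hc⟩ ^ 3 =
        f ⟨x ^ i * y ^ j * b ^ l, hc⟩ ^ 2 * f ⟨x ^ i * y ^ j * b ^ l, hc⟩ := pow_succ _ 2
    rw [h3, h2, one_mul] at h4
    exact h4.symm
  have hconj : ∀ h : G, (h⁻¹ * u * h) ^ 2 = 1 := by
    intro h
    have hu' : u * u = 1 := by rw [← pow_two]; exact hu
    rw [pow_two]
    calc h⁻¹ * u * h * (h⁻¹ * u * h) = h⁻¹ * (u * u) * h := by group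
      _ = 1 := by rw [hu']; group
  constructor
  · show (Nat.card (Subgroup.centralizer ({x} : Set G)) : ℂ)⁻¹ *
      ∑ h : G, extendByZero (Subgroup.centralizer ({x} : Set G)) (ph1 x f) (h⁻¹ * u * h) = 0
    rw [Finset.sum_eq_zero, mul_zero]
    intro h _
    by_cases hc : h⁻¹ * u * h ∈ Subgroup.centralizer ({x} : Set G)
    · have e1 : extendByZero (Subgroup.centralizer ({x} : Set G)) (ph1 x f) (h⁻¹ * u * h) =
          ph1 x f ⟨h⁻¹ * u * h, hc⟩ :=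
        Subtype.val_injective.extend_apply (ph1 x f) 0 ⟨h⁻¹ * u * h, hc⟩
      rw [e1]
      show 1 - ((f ⟨h⁻¹ * u * h, hc⟩ : ℂˣ) : ℂ) = 0
      rw [hf1 _ hc (hconj h), Units.val_one, sub_self]
    · exact Function.extend_apply' _ _ _ (by
        rintro ⟨⟨c, hc'⟩, hcc⟩
        exact hc (hcc ▸ hc'))
  · show (Nat.card (Subgroup.centralizer ({x} : Set G)) : ℂ)⁻¹ *
      ∑ h : G, extendByZero (Subgroup.centralizer ({x} : Set G)) (ph2 x f g) (h⁻¹ * u * h) = 0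
    rw [Finset.sum_eq_zero, mul_zero]
    intro h _
    by_cases hc : h⁻¹ * u * h ∈ Subgroup.centralizer ({x} : Set G)
    · have e1 : extendByZero (Subgroup.centralizer ({x} : Set G)) (ph2 x f g) (h⁻¹ * u * h) =
          ph2 x f g ⟨h⁻¹ * u * h, hc⟩ :=
        Subtype.val_injective.extend_apply (ph2 x f g) 0 ⟨h⁻¹ * u * h, hc⟩
      rw [e1]
      show ((g ⟨h⁻¹ * u * h, hc⟩ : ℂˣ) : ℂ) -
        ((f ⟨h⁻¹ * u * h, hc⟩ : ℂˣ) : ℂ) * ((g ⟨h⁻¹ * u * h, hc⟩ : ℂˣ) : ℂ) = 0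
      rw [hf1 _ hc (hconj h), Units.val_one, one_mul, sub_self]
    · exact Function.extend_apply' _ _ _ (by
        rintro ⟨⟨c, hc'⟩, hcc⟩
        exact hc (hcc ▸ hc'))

end Cfsg.Agent.Lib.Helper1.D8ZERO
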