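import Mathlib
import Cfsg.Agent.Lib.Helper77.LocalRing
import Cfsg.Agent.Lib.Helper75.GrpAlg

/-!
# S4889, piece D2b: units of the group algebra lift from the residue field to the local ring.
-/

set_option autoImplicit false

namespace Cfsg.Agent.Lib.Helper1.DecD2b

open Cfsg Cfsg.Agent.Lib.Helper77.LocalRing Cfsg.Agent.Lib.Helper75.GrpAlg

theorem lmat_one' {k : Type*} [CommRing k] {G : Type*} [Group G] [DecidableEq G] :
    lmat (1 : MonoidAlgebra k G) = 1 := by
  ext g h
  rw [lmat_apply, MonoidAlgebra.one_def, MonoidAlgebra.coeff_single, Finsupp.single_apply, Matrix.one_apply]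
  by_cases hgh : g = h
  · subst hgh; simp
  · have h1 : ¬ (1 = g * h⁻¹) := fun h1 => hgh (mul_inv_eq_one.mp h1.symm)
    rw [if_neg h1, if_neg hgh]

theorem lmat_injective {k : Type*} [CommRing k] {G : Type*} [Group G]
    (x y : MonoidAlgebra k G) (h : lmat x = lmat y) : x = y := by
  apply MonoidAlgebra.ext
  ext g
  have := congrFun (congrFun h g) 1
  simpa [lmat_apply] using this

theorem exists_inv_lift {G : Type*} [Group G] [Finite G] {M : Ideal AlgInt} (hMp : M.IsPrime)
    {F : Type*} [Field F] (q : localSubring M hMp →+* F)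
    (hq0 : ∀ x : localSubring M hMp, q x = 0 ↔ MemLocalIdeal M (x : ℂ))
    (x : MonoidAlgebra (localSubring M hMp) G) (y : MonoidAlgebra F G)
    (hxy : MonoidAlgebra.mapRingHom G q x * y = 1) :
    ∃ x' : MonoidAlgebra (localSubring M hMp) G, x * x' = 1 ∧ x' * x = 1 := by
  classical
  haveI : Fintype G := Fintype.ofFinite G
  have h1 : q (lmat x).det * (lmat y).det = 1 := by
    rw [RingHom.map_det, RingHom.mapMatrix_apply, lmat_map, ← Matrix.det_mul, ← lmat_mul, hxy,
      lmat_one', Matrix.det_one]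
  have hqd : q (lmat x).det ≠ 0 := by
    intro h0
    rw [h0, zero_mul] at h1
    exact zero_ne_one h1
  have hd' : ¬ MemLocalIdeal M (((lmat x).det : localSubring M hMp) : ℂ) :=
    fun h => hqd ((hq0 _).mpr h)
  have hd0 : (((lmat x).det : localSubring M hMp) : ℂ) ≠ 0 := by
    intro h0
    apply hd'
    rw [h0]
    exact memLocalIdeal_zero hMp
  have hunit : IsUnit (lmat x).det := by
    refine ⟨⟨(lmat x).det, ⟨(((lmat x).det : localSubring M hMp) : ℂ)⁻¹,
      memLocalRing_inv (lmat x).det.2 hd'⟩, ?_, ?_⟩, rfl⟩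
    · apply Subtype.ext
      show (((lmat x).det : localSubring M hMp) : ℂ) * (((lmat x).det : localSubring M hMp) : ℂ)⁻¹
        = 1
      exact mul_inv_cancel₀ hd0
    · apply Subtype.ext
      show (((lmat x).det : localSubring M hMp) : ℂ)⁻¹ * (((lmat x).det : localSubring M hMp) : ℂ)
        = 1
      exact inv_mul_cancel₀ hd0
  have hN1 : lmat x * (lmat x)⁻¹ = 1 := Matrix.mul_nonsing_inv _ hunit
  let x' : MonoidAlgebra (localSubring M hMp) G :=
    MonoidAlgebra.ofCoeff (Finsupp.equivFunOnFinite.symm (fun g => (lmat x)⁻¹ g 1))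
  have hx' : ∀ g, x'.coeff g = (lmat x)⁻¹ g 1 := fun g => rfl
  have hxx' : x * x' = 1 := by
    apply MonoidAlgebra.ext
    ext g
    rw [coeff_mul_eq_sum]
    have h2 : ∑ h, x.coeff (g * h⁻¹) * x'.coeff h = (lmat x * (lmat x)⁻¹) g 1 := by
      rw [Matrix.mul_apply]
      refine Finset.sum_congr rfl fun h _ => ?_
      rw [hx', lmat_apply]
    rw [h2, hN1, MonoidAlgebra.one_def, MonoidAlgebra.coeff_single, Finsupp.single_apply, Matrix.one_apply]
    by_cases hg : g = 1
    · subst hg; simp
    · rw [if_neg hg, if_neg (fun h => hg h.symm)]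
  refine ⟨x', hxx', ?_⟩
  have h3 : lmat x * lmat x' = 1 := by rw [← lmat_mul, hxx', lmat_one']
  have h4 : lmat x' * lmat x = 1 := mul_eq_one_comm.mp h3
  apply lmat_injective
  rw [lmat_mul, h4, lmat_one']

end Cfsg.Agent.Lib.Helper1.DecD2b
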