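import Mathlib

/-!
# S4889, piece W2: the "master lemma" for additive conjugation-invariant functions on the
idempotents of a finite-dimensional algebra over an algebraically closed field.
-/

set_option autoImplicit false

namespace Cfsg.Agent.Lib.Helper1.DecW2

section ring

variable {A : Type*} [Ring A]

/-- an idempotent nilpotent element is zero -/
theorem idem_nilpotent_eq_zero (e : A) (he : e * e = e) (hn : IsNilpotent e) : e = 0 := by
  obtain ⟨k, hk⟩ := hn
  have h1 : ∀ m : ℕ, e ^ (m + 1) = e := by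
    intro m
    induction m with
    | zero => rw [zero_add, pow_one]
    | succ m ih => rw [pow_succ, ih, he]
  cases k with
  | zero =>
    rw [pow_zero] at hk
    rw [← mul_one e, hk, mul_zero]
  | succ k => rw [← h1 k, hk]

/-- a left inverse and a right inverse: the right inverse is two-sided -/
theorem unit_of_left_right (u l r : A) (hl : l * u = 1) (hr : u * r = 1) : r * u = 1 := by
  have h : l = r := by
    calc l = l * (u * r) := by rw [hr, mul_one]
      _ = (l * u) * r := by rw [mul_assoc]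
      _ = r := by rw [hl, one_mul]
  rw [← h]; exact hl

/-- Step 1: idempotents with the same image modulo a nil kernel are conjugate. -/
theorem psi_eq_of_map_eq {B : Type*} [Ring B] (φ : A →+* B)
    (hker : ∀ x, φ x = 0 → IsNilpotent x) (Ψ : A → ℤ)
    (hconj : ∀ e u v : A, e * e = e → u * v = 1 → v * u = 1 → Ψ (u * e * v) = Ψ e)
    (e e' : A) (he : e * e = e) (he' : e' * e' = e') (h : φ e = φ e') : Ψ e' = Ψ e := by
  have hφe : φ e * φ e = φ e := by rw [← map_mul, he]
  have h1 : φ (1 - (e' * e + (1 - e') * (1 - e))) = 0 := by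
    simp only [map_sub, map_one, map_add, map_mul]
    rw [← h]
    have h2 : (1 - φ e) * (1 - φ e) = 1 - φ e := by
      rw [mul_sub, mul_one, sub_mul, one_mul, hφe, sub_self, sub_zero]
    rw [hφe, h2]; abel
  have hn : IsNilpotent (1 - (e' * e + (1 - e') * (1 - e))) := hker _ h1
  have hunit : IsUnit (e' * e + (1 - e') * (1 - e)) := by
    have := hn.isUnit_one_sub
    rwa [sub_sub_cancel] at this
  obtain ⟨w, hw⟩ := hunit
  have a1 : e' * (1 - e') = 0 := by rw [mul_sub, mul_one, he', sub_self]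
  have a2 : (1 - e) * e = 0 := by rw [sub_mul, one_mul, he, sub_self]
  have h2 : e' * (w : A) = (w : A) * e := by
    rw [hw, mul_add, ← mul_assoc, he', ← mul_assoc, a1, zero_mul, add_zero, add_mul, mul_assoc, he,
      mul_assoc, a2, mul_zero, add_zero]
  have h3 : e' = (w : A) * e * ((w⁻¹ : Aˣ) : A) := by
    rw [← h2, mul_assoc, Units.mul_inv, mul_one]
  rw [h3]
  exact hconj e w ((w⁻¹ : Aˣ) : A) he w.mul_inv w.inv_mul

/-- Step 2: idempotents whose images are conjugate are conjugate. -/
theorem psi_eq_of_conj {B : Type*} [Ring B] (φ : A →+* B) (hsurj : Function.Surjective φ)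
    (hker : ∀ x, φ x = 0 → IsNilpotent x) (Ψ : A → ℤ)
    (hconj : ∀ e u v : A, e * e = e → u * v = 1 → v * u = 1 → Ψ (u * e * v) = Ψ e)
    (e e' : A) (he : e * e = e) (he' : e' * e' = e') (w w' : B) (hww' : w * w' = 1)
    (hw'w : w' * w = 1) (h : φ e' = w * φ e * w') : Ψ e' = Ψ e := by
  obtain ⟨u, rfl⟩ := hsurj w
  obtain ⟨u', rfl⟩ := hsurj w'
  have h1 : IsUnit (u * u') := by
    have hn : IsNilpotent (1 - u * u') :=
      hker _ (by rw [map_sub, map_one, map_mul, hww', sub_self])
    have := hn.isUnit_one_sub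
    rwa [sub_sub_cancel] at this
  have h2 : IsUnit (u' * u) := by
    have hn : IsNilpotent (1 - u' * u) :=
      hker _ (by rw [map_sub, map_one, map_mul, hw'w, sub_self])
    have := hn.isUnit_one_sub
    rwa [sub_sub_cancel] at this
  obtain ⟨a, ha⟩ := h1
  obtain ⟨b, hb⟩ := h2
  have hr : u * (u' * ((a⁻¹ : Aˣ) : A)) = 1 := by
    rw [← mul_assoc, ← ha]; exact a.mul_inv
  have hl : (((b⁻¹ : Aˣ) : A) * u') * u = 1 := by
    rw [mul_assoc, ← hb]; exact b.inv_mul
  have hr' : (u' * ((a⁻¹ : Aˣ) : A)) * u = 1 := unit_of_left_right u _ _ hl hr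
  have hφv : φ (u' * ((a⁻¹ : Aˣ) : A)) = φ u' := by
    have h3 : φ u * φ (u' * ((a⁻¹ : Aˣ) : A)) = 1 := by rw [← map_mul, hr, map_one]
    calc φ (u' * ((a⁻¹ : Aˣ) : A)) = (φ u' * φ u) * φ (u' * ((a⁻¹ : Aˣ) : A)) := by
          rw [hw'w, one_mul]
      _ = φ u' * (φ u * φ (u' * ((a⁻¹ : Aˣ) : A))) := by rw [mul_assoc]
      _ = φ u' := by rw [h3, mul_one]
  have hid : (u * e * (u' * ((a⁻¹ : Aˣ) : A))) * (u * e * (u' * ((a⁻¹ : Aˣ) : A)))
      = u * e * (u' * ((a⁻¹ : Aˣ) : A)) := by
    calc (u * e * (u' * ((a⁻¹ : Aˣ) : A))) * (u * e * (u' * ((a⁻¹ : Aˣ) : A)))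
        = u * e * ((u' * ((a⁻¹ : Aˣ) : A)) * u) * e * (u' * ((a⁻¹ : Aˣ) : A)) := by
          simp only [mul_assoc]
      _ = u * e * (u' * ((a⁻¹ : Aˣ) : A)) := by rw [hr', mul_one, mul_assoc u e e, he]
  have h4 : φ (u * e * (u' * ((a⁻¹ : Aˣ) : A))) = φ e' := by
    rw [map_mul, map_mul, hφv, h]
  rw [psi_eq_of_map_eq φ hker Ψ hconj (u * e * (u' * ((a⁻¹ : Aˣ) : A))) e' hid he' h4]
  exact hconj e u _ he hr hr'

end ring

theorem rank_eq_zero' {F : Type*} [Field F] {n : ℕ} (P : Matrix (Fin n) (Fin n) F)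
    (h : P.rank = 0) : P = 0 := by
  unfold Matrix.rank at h
  have h1 : LinearMap.range P.mulVecLin = ⊥ := Submodule.finrank_eq_zero.mp h
  have h2 : P.mulVecLin = 0 := LinearMap.range_eq_bot.mp h1
  ext i j
  have h3 : P.mulVecLin (Pi.single j 1) i = 0 := by rw [h2]; rfl
  rw [Matrix.mulVecLin_apply, Matrix.mulVec_single_one] at h3
  exact h3

theorem exists_master {F : Type*} [Field F] [IsAlgClosed F] {A : Type*} [Ring A] [Algebra F A]
    [FiniteDimensional F A]
    (hLA : ∀ (n : ℕ) (hn : 0 < n) (P : Matrix (Fin n) (Fin n) F), P * P = P → P ≠ 0 →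
      ∃ Q U V : Matrix (Fin n) (Fin n) F, Q * Q = Q ∧ Q * P = Q ∧ P * Q = Q ∧ U * V = 1 ∧
        V * U = 1 ∧ Q = U * Matrix.single (⟨0, hn⟩ : Fin n) ⟨0, hn⟩ 1 * V ∧
        (P - Q).rank + 1 = P.rank) :
    ∃ (L : ℕ) (f : Fin L → ℕ) (hf : ∀ j, 0 < f j)
      (ρ : ∀ j : Fin L, A →ₐ[F] Matrix (Fin (f j)) (Fin (f j)) F) (ε : Fin L → A),
      (∀ j, Function.Surjective (ρ j)) ∧
      (∀ x : A, (∀ j, ρ j x = 0) → IsNilpotent x) ∧
      (∀ i, ε i * ε i = ε i) ∧
      (∀ i j, ρ j (ε i)
        = if i = j then Matrix.single (⟨0, hf j⟩ : Fin (f j)) ⟨0, hf j⟩ 1 else 0) ∧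
      (∀ a : Fin L → F, (∀ x : A, ∑ j, a j * (ρ j x).trace = 0) → ∀ j, a j = 0) ∧
      (∀ Ψ : A → ℤ,
        (∀ e e' : A, e * e = e → e' * e' = e' → e * e' = 0 → e' * e = 0 →
          Ψ (e + e') = Ψ e + Ψ e') →
        (∀ e u v : A, e * e = e → u * v = 1 → v * u = 1 → Ψ (u * e * v) = Ψ e) →
        ∀ e : A, e * e = e → Ψ e = ∑ j, ((ρ j e).rank : ℤ) * Ψ (ε j)) := by
  classical
  haveI : IsArtinianRing A := IsArtinianRing.of_finite F A
  have hJnil : IsNilpotent (Ring.jacobson A) := IsSemiprimaryRing.isNilpotent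
  haveI : FiniteDimensional F (A ⧸ Ring.jacobson A) :=
    Module.Finite.of_surjective (Ideal.Quotient.mkₐ F (Ring.jacobson A)).toLinearMap
      (Ideal.Quotient.mkₐ_surjective F (Ring.jacobson A))
  obtain ⟨l, d, hd, ⟨eq⟩⟩ :=
    IsSemisimpleRing.exists_algEquiv_pi_matrix_of_isAlgClosed F (A ⧸ Ring.jacobson A)
  obtain ⟨φ, hφdef⟩ : ∃ φ : A →ₐ[F] (Π i : Fin l, Matrix (Fin (d i)) (Fin (d i)) F),
      ∀ x, φ x = eq (Ideal.Quotient.mk (Ring.jacobson A) x) :=
    ⟨(eq : (A ⧸ Ring.jacobson A) →ₐ[F] _).comp (Ideal.Quotient.mkₐ F (Ring.jacobson A)),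
      fun x => rfl⟩
  have hφsurj : Function.Surjective φ := by
    intro y
    obtain ⟨q, hq⟩ := eq.surjective y
    obtain ⟨x, hx⟩ := Ideal.Quotient.mk_surjective q
    exact ⟨x, by rw [hφdef, hx, hq]⟩
  have hφker : ∀ x, φ x = 0 ↔ x ∈ Ring.jacobson A := by
    intro x
    rw [hφdef, ← Ideal.Quotient.eq_zero_iff_mem]
    constructor
    · intro h
      exact eq.injective (h.trans (map_zero eq).symm)
    · intro h
      rw [h, map_zero]
  obtain ⟨kk, hkk⟩ := hJnil
  have hJelt : ∀ x ∈ Ring.jacobson A, IsNilpotent x := by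
    intro x hx
    refine ⟨kk, ?_⟩
    have h1 : x ^ kk ∈ (Ring.jacobson A) ^ kk := Submodule.pow_mem_pow _ hx kk
    rw [hkk] at h1
    exact h1
  have hker : ∀ x, φ x = 0 → IsNilpotent x := fun x hx => hJelt x ((hφker x).mp hx)
  have hf : ∀ j, 0 < d j := fun j => Nat.pos_of_ne_zero (hd j).out
  -- the data
  let ρ : ∀ j : Fin l, A →ₐ[F] Matrix (Fin (d j)) (Fin (d j)) F :=
    fun j => (Pi.evalAlgHom F (fun i : Fin l => Matrix (Fin (d i)) (Fin (d i)) F) j).comp φ
  have hρ : ∀ j x, ρ j x = φ x j := fun _ _ => rfl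
  have hEE : ∀ j : Fin l, Matrix.single (⟨0, hf j⟩ : Fin (d j)) (⟨0, hf j⟩ : Fin (d j)) (1 : F) *
      Matrix.single (⟨0, hf j⟩ : Fin (d j)) (⟨0, hf j⟩ : Fin (d j)) (1 : F) =
      Matrix.single (⟨0, hf j⟩ : Fin (d j)) (⟨0, hf j⟩ : Fin (d j)) (1 : F) := by
    intro j
    rw [Matrix.single_mul_single_same, mul_one]
  have hrange : ∀ y : (Π i : Fin l, Matrix (Fin (d i)) (Fin (d i)) F),
      y ∈ (φ : A →+* (Π i : Fin l, Matrix (Fin (d i)) (Fin (d i)) F)).range :=
    fun y => RingHom.mem_range.mpr (hφsurj y)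
  have hker' : ∀ x ∈ RingHom.ker (φ : A →+* (Π i : Fin l, Matrix (Fin (d i)) (Fin (d i)) F)),
      IsNilpotent x := fun x hx => hker x hx
  have hlift : ∀ i : Fin l, ∃ e' : A, IsIdempotentElem e' ∧
      φ e' = Pi.single i (Matrix.single (⟨0, hf i⟩ : Fin (d i)) (⟨0, hf i⟩ : Fin (d i)) (1 : F)) := by
    intro i
    have hidem : IsIdempotentElem (Pi.single i
        (Matrix.single (⟨0, hf i⟩ : Fin (d i)) (⟨0, hf i⟩ : Fin (d i)) (1 : F)) :
          Π i : Fin l, Matrix (Fin (d i)) (Fin (d i)) F) := by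
      show _ * _ = _
      rw [← Pi.single_mul, hEE]
    exact exists_isIdempotentElem_eq_of_ker_isNilpotent
      (φ : A →+* (Π i : Fin l, Matrix (Fin (d i)) (Fin (d i)) F)) hker' _ (hrange _) hidem
  choose ε hεid hεφ using hlift
  have hρε : ∀ i j, ρ j (ε i)
      = if i = j then Matrix.single (⟨0, hf j⟩ : Fin (d j)) ⟨0, hf j⟩ 1 else 0 := by
    intro i j
    rw [hρ, hεφ]
    by_cases hij : i = j
    · subst hij
      rw [if_pos rfl, Pi.single_eq_same]
    · rw [if_neg hij, Pi.single_eq_of_ne (Ne.symm hij)]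
  have hnil : ∀ x : A, (∀ j, ρ j x = 0) → IsNilpotent x := by
    intro x hx
    apply hker
    funext j
    exact hx j
  refine ⟨l, d, hf, ρ, ε, ?_, hnil, hεid, hρε, ?_, ?_⟩
  · intro j y
    obtain ⟨x, hx⟩ := hφsurj (Pi.single j y)
    exact ⟨x, by rw [hρ, hx, Pi.single_eq_same]⟩
  · intro a ha i
    have h1 := ha (ε i)
    rw [Finset.sum_eq_single i] at h1
    · rw [hρε, if_pos rfl, Matrix.trace_single_eq_same, mul_one] at h1
      exact h1
    · intro j _ hji
      rw [hρε, if_neg (Ne.symm hji), Matrix.trace_zero, mul_zero]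
    · intro h
      exact absurd (Finset.mem_univ i) h
  · intro Ψ hadd hconj
    have hΨ0 : Ψ 0 = 0 := by
      have := hadd 0 0 (by simp) (by simp) (by simp) (by simp)
      rw [add_zero] at this
      linarith
    have main : ∀ n : ℕ, ∀ e : A, e * e = e → ∑ j, (ρ j e).rank = n →
        Ψ e = ∑ j, ((ρ j e).rank : ℤ) * Ψ (ε j) := by
      intro n
      induction n with
      | zero =>
        intro e he hR
        have h0 : ∀ j, ρ j e = 0 := by
          intro j
          exact rank_eq_zero' _ ((Finset.sum_eq_zero_iff.mp hR) j (Finset.mem_univ j))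
        have he0 : e = 0 := idem_nilpotent_eq_zero e he (hnil e h0)
        rw [he0, hΨ0]
        symm
        apply Finset.sum_eq_zero
        intro j _
        rw [map_zero, Matrix.rank_zero, Nat.cast_zero, zero_mul]
      | succ n ih =>
        intro e he hR
        obtain ⟨j, hj⟩ : ∃ j, ρ j e ≠ 0 := by
          by_contra hno
          push Not at hno
          have h0 : ∑ j, (ρ j e).rank = 0 :=
            Finset.sum_eq_zero (fun j _ => by rw [hno j]; exact Matrix.rank_zero)
          omega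
        have hPP : ρ j e * ρ j e = ρ j e := by rw [← map_mul, he]
        obtain ⟨Q, U, V, hQQ, hQP, hPQ, hUV, hVU, hQ, hrank⟩ := hLA (d j) (hf j) (ρ j e) hPP hj
        have hs_id : IsIdempotentElem
            (Pi.single j Q : Π i : Fin l, Matrix (Fin (d i)) (Fin (d i)) F) := by
          show _ * _ = _
          rw [← Pi.single_mul, hQQ]
        have hs1 : (Pi.single j Q : Π i : Fin l, Matrix (Fin (d i)) (Fin (d i)) F) * φ e
            = Pi.single j Q := by
          funext k
          by_cases hk : k = j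
          · subst hk
            rw [Pi.mul_apply, Pi.single_eq_same]
            exact hQP
          · rw [Pi.mul_apply, Pi.single_eq_of_ne hk, zero_mul]
        have hs2 : φ e * (Pi.single j Q : Π i : Fin l, Matrix (Fin (d i)) (Fin (d i)) F)
            = Pi.single j Q := by
          funext k
          by_cases hk : k = j
          · subst hk
            rw [Pi.mul_apply, Pi.single_eq_same]
            exact hPQ
          · rw [Pi.mul_apply, Pi.single_eq_of_ne hk, mul_zero]
        have he_id : IsIdempotentElem e := he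
        have hz1 : (Pi.single j Q : Π i : Fin l, Matrix (Fin (d i)) (Fin (d i)) F) *
            (φ : A →+* (Π i : Fin l, Matrix (Fin (d i)) (Fin (d i)) F)) (1 - e) = 0 := by
          show _ * φ (1 - e) = 0
          rw [map_sub, map_one, mul_sub, mul_one, hs1, sub_self]
        have hz2 : (φ : A →+* (Π i : Fin l, Matrix (Fin (d i)) (Fin (d i)) F)) (1 - e) *
            (Pi.single j Q : Π i : Fin l, Matrix (Fin (d i)) (Fin (d i)) F) = 0 := by
          show φ (1 - e) * _ = 0
          rw [map_sub, map_one, sub_mul, one_mul, hs2, sub_self]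
        obtain ⟨e₁, he₁, hφe₁, h12, h21⟩ :=
          exists_isIdempotentElem_mul_eq_zero_of_ker_isNilpotent
            (φ : A →+* (Π i : Fin l, Matrix (Fin (d i)) (Fin (d i)) F)) hker' (Pi.single j Q)
            (hrange _) hs_id (1 - e) he_id.one_sub hz1 hz2
        have hφe₁' : φ e₁ = Pi.single j Q := hφe₁
        have h3 : e₁ * e = e₁ := by
          have := h12
          rw [mul_sub, mul_one, sub_eq_zero] at this
          exact this.symm
        have h4 : e * e₁ = e₁ := by
          have := h21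
          rw [sub_mul, one_mul, sub_eq_zero] at this
          exact this.symm
        have he₁' : e₁ * e₁ = e₁ := he₁
        have he₂ : (e - e₁) * (e - e₁) = e - e₁ := by
          rw [mul_sub, sub_mul, sub_mul, he, h4, h3, he₁', sub_self, sub_zero]
        have ho1 : e₁ * (e - e₁) = 0 := by rw [mul_sub, h3, he₁', sub_self]
        have ho2 : (e - e₁) * e₁ = 0 := by rw [sub_mul, h4, he₁', sub_self]
        have hsum : Ψ e = Ψ e₁ + Ψ (e - e₁) := by
          have := hadd e₁ (e - e₁) he₁' he₂ ho1 ho2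
          rwa [add_sub_cancel] at this
        have hΨe₁ : Ψ e₁ = Ψ (ε j) := by
          apply psi_eq_of_conj (φ : A →+* (Π i : Fin l, Matrix (Fin (d i)) (Fin (d i)) F))
            hφsurj hker Ψ hconj (ε j) e₁ (hεid j) he₁'
            (Function.update 1 j U) (Function.update 1 j V)
          · funext k
            by_cases hk : k = j
            · subst hk
              rw [Pi.mul_apply, Function.update_self, Function.update_self, hUV]
              rfl
            · rw [Pi.mul_apply, Function.update_of_ne hk, Function.update_of_ne hk]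
              simp
          · funext k
            by_cases hk : k = j
            · subst hk
              rw [Pi.mul_apply, Function.update_self, Function.update_self, hVU]
              rfl
            · rw [Pi.mul_apply, Function.update_of_ne hk, Function.update_of_ne hk]
              simp
          · show φ e₁ = _ * φ (ε j) * _
            rw [hφe₁', hεφ j]
            funext k
            by_cases hk : k = j
            · subst hk
              rw [Pi.mul_apply, Pi.mul_apply, Function.update_self, Function.update_self,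
                Pi.single_eq_same, Pi.single_eq_same, hQ]
            · rw [Pi.mul_apply, Pi.mul_apply, Pi.single_eq_of_ne hk, Pi.single_eq_of_ne hk,
                mul_zero, zero_mul]
        have hρj : ρ j (e - e₁) = ρ j e - Q := by
          rw [map_sub, hρ j e₁, hφe₁', Pi.single_eq_same]
        have hρk : ∀ k, k ≠ j → ρ k (e - e₁) = ρ k e := by
          intro k hk
          rw [map_sub, hρ k e₁, hφe₁', Pi.single_eq_of_ne hk, sub_zero]
        have a1 : ∑ k, (ρ k e).rank
            = (ρ j e).rank + ∑ k ∈ Finset.univ.erase j, (ρ k e).rank :=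
          (Finset.add_sum_erase _ _ (Finset.mem_univ j)).symm
        have a2 : ∑ k, (ρ k (e - e₁)).rank
            = (ρ j (e - e₁)).rank + ∑ k ∈ Finset.univ.erase j, (ρ k (e - e₁)).rank :=
          (Finset.add_sum_erase _ _ (Finset.mem_univ j)).symm
        have a3 : ∑ k ∈ Finset.univ.erase j, (ρ k (e - e₁)).rank
            = ∑ k ∈ Finset.univ.erase j, (ρ k e).rank :=
          Finset.sum_congr rfl (fun k hk => by rw [hρk k (Finset.ne_of_mem_erase hk)])
        have hR2 : ∑ k, (ρ k (e - e₁)).rank = n := by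
          rw [hρj] at a2
          omega
        have hIH := ih (e - e₁) he₂ hR2
        have b1 : ∑ k, ((ρ k e).rank : ℤ) * Ψ (ε k)
            = ((ρ j e).rank : ℤ) * Ψ (ε j)
              + ∑ k ∈ Finset.univ.erase j, ((ρ k e).rank : ℤ) * Ψ (ε k) :=
          (Finset.add_sum_erase _ _ (Finset.mem_univ j)).symm
        have b2 : ∑ k, ((ρ k (e - e₁)).rank : ℤ) * Ψ (ε k)
            = ((ρ j (e - e₁)).rank : ℤ) * Ψ (ε j)
              + ∑ k ∈ Finset.univ.erase j, ((ρ k (e - e₁)).rank : ℤ) * Ψ (ε k) :=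
          (Finset.add_sum_erase _ _ (Finset.mem_univ j)).symm
        have b3 : ∑ k ∈ Finset.univ.erase j, ((ρ k (e - e₁)).rank : ℤ) * Ψ (ε k)
            = ∑ k ∈ Finset.univ.erase j, ((ρ k e).rank : ℤ) * Ψ (ε k) :=
          Finset.sum_congr rfl (fun k hk => by rw [hρk k (Finset.ne_of_mem_erase hk)])
        have hrank' : ((ρ j e).rank : ℤ) = ((ρ j e - Q).rank : ℤ) + 1 := by
          exact_mod_cast hrank.symm
        rw [hsum, hΨe₁, hIH, b1, b2, b3, hρj, hrank']
        ring
    intro e he
    exact main _ e he rfl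

end Cfsg.Agent.Lib.Helper1.DecW2
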