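import Mathlib
import Cfsg.Agent.Lib.Helper44.GFStmt
import Cfsg.Agent.Lib.Helper22.MFldRK

/-!
# S2717, piece RT: an anisotropic binary form over the fixed field of an involution `σ` of a
finite field `F` splits over `F`, with `σ`-conjugate roots.
-/

set_option autoImplicit false

namespace Cfsg.Agent.Lib.Helper1.GFRT

open Cfsg.Agent.Lib.Helper43.H90Fin Cfsg.Agent.Lib.Helper44.MFldStmt
  Cfsg.Agent.Lib.Helper44.GFStmt

universe u v

/-- [RT], from `RootK` -/
theorem main_of (hRK : RootK.{u}) : SplitRoots.{u, v} := by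
  intro F₀ _ _ F _ _ j σ hσ hfix a₀ b₀ hab
  have hjfix : ∀ y₀ : F₀, σ (j y₀) = j y₀ := fun y₀ => (hfix _).mpr ⟨y₀, rfl⟩
  -- a root `ρ` of `X² + (j a₀) X + j b₀` in `F`
  have hroot : ∃ ρ : F, ρ ^ 2 + j a₀ * ρ + j b₀ = 0 := by
    let _ : Fintype (fixF σ) := Fintype.ofFinite (fixF σ)
    let a : fixF σ := ⟨j a₀, (mem_fixF σ _).mpr (hjfix a₀)⟩
    let b : fixF σ := ⟨j b₀, (mem_fixF σ _).mpr (hjfix b₀)⟩
    have haniso : Aniso a b := by
      intro z₁ z₂ h
      obtain ⟨y₁, hy₁⟩ := (hfix _).mp ((mem_fixF σ _).mp z₁.2)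
      obtain ⟨y₂, hy₂⟩ := (hfix _).mp ((mem_fixF σ _).mp z₂.2)
      have h' : (z₁ : F) ^ 2 + j a₀ * (z₁ : F) * (z₂ : F) + j b₀ * (z₂ : F) ^ 2 = 0 :=
        congrArg Subtype.val h
      rw [← hy₁, ← hy₂] at h'
      have h'' : j (y₁ ^ 2 + a₀ * y₁ * y₂ + b₀ * y₂ ^ 2) = j 0 := by
        rw [map_add, map_add, map_mul, map_mul, map_mul, map_pow, map_pow, map_zero]
        exact h'
      have h3 := hab y₁ y₂ (j.injective h'')
      constructor
      · apply Subtype.ext
        rw [← hy₁, h3.1, map_zero]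
        rfl
      · apply Subtype.ext
        rw [← hy₂, h3.2, map_zero]
        rfl
    have hrank : Module.finrank (fixF σ) F = 2 := by
      have := Cfsg.Agent.Lib.Helper43.H90GL.finite_ringAut (F := F)
      have := Fintype.ofFinite (↥(Subgroup.zpowers σ))
      have h1 := FixedPoints.finrank_eq_card (↥(Subgroup.zpowers σ)) F
      rw [← Nat.card_eq_fintype_card, Nat.card_zpowers, hσ] at h1
      exact h1
    obtain ⟨ρ, hρ⟩ := hRK (fixF σ) a b haniso F hrank
    exact ⟨ρ, hρ⟩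
  obtain ⟨ρ, hρ⟩ := hroot
  set A := j a₀ with hA
  set B := j b₀ with hB
  have hσA : σ A = A := hjfix a₀
  have hσB : σ B = B := hjfix b₀
  have hω : (-ρ) ^ 2 - A * (-ρ) + B = 0 := by linear_combination hρ
  have hσω : (σ (-ρ)) ^ 2 - A * σ (-ρ) + B = 0 := by
    have h1 := congrArg σ hω
    rw [map_add, map_sub, map_mul, map_pow, map_zero, hσA, hσB] at h1
    exact h1
  have hne : σ (-ρ) ≠ -ρ := by
    intro h
    obtain ⟨y, hy⟩ := (hfix _).mp h
    have h1 : j (y ^ 2 - a₀ * y + b₀) = j 0 := by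
      rw [map_add, map_sub, map_mul, map_pow, map_zero, hy]
      exact hω
    have h2 := j.injective h1
    have h3 := hab (-y) 1 (by linear_combination h2)
    exact one_ne_zero h3.2
  have hsub : -ρ - σ (-ρ) ≠ 0 := sub_ne_zero.mpr (Ne.symm hne)
  have hsum : -ρ + σ (-ρ) = A := by
    have h1 : (-ρ - σ (-ρ)) * (-ρ + σ (-ρ) - A) = 0 := by linear_combination hω - hσω
    rcases mul_eq_zero.mp h1 with h2 | h2
    · exact absurd h2 hsub
    · exact sub_eq_zero.mp h2
  refine ⟨-ρ, hsum, ?_, hne⟩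
  have h1 : σ (-ρ) = A - (-ρ) := by rw [← hsum]; ring
  rw [h1]
  linear_combination -hω

/-- [RT] -/
theorem main : SplitRoots.{u, v} := main_of Cfsg.Agent.Lib.Helper22.MFldRK.main

end Cfsg.Agent.Lib.Helper1.GFRT
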