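import Mathlib
import Cfsg.Agent.Lib.Helper26.J3Stmt

set_option autoImplicit false

/-! Piece CON7 of S3366: the image of `z` in `PSp(4,3)` has order 3. -/

namespace Cfsg.Agent.Lib.Helper1.J3CON7

open Cfsg.Agent.Lib.Helper26.J3Stmt

theorem zM_cube : zM ^ 3 = 1 := by decide

theorem zM_ne : ¬ (zM = 1 ∨ zM = -1) := by decide

theorem main : Cfsg.Agent.Lib.Helper26.J3Stmt.CON7 := by
  intro h5 z hz
  have : Fact (Nat.Prime 3) := ⟨by norm_num⟩
  apply orderOf_eq_prime
  · rw [← QuotientGroup.mk_pow]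
    have h3 : z ^ 3 = 1 := by
      apply Subtype.ext
      show ((z ^ 3 : Sp) : Mat) = 1
      rw [SubmonoidClass.coe_pow, hz]
      exact zM_cube
    rw [h3]
    rfl
  · intro h
    rw [QuotientGroup.eq_one_iff] at h
    have h1 := (h5 z h).1
    rw [hz] at h1
    exact zM_ne h1

end Cfsg.Agent.Lib.Helper1.J3CON7
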