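import Mathlib
import Cfsg.Agent.Lib.Helper83.MclStmt
import Cfsg.Agent.Lib.Helper13.Symp

/-!
# S5075 piece SPC: the symplectic component

The group generated by the transvections `y ↦ y + c * β x y • x`, `x ∈ W`, induces exactly the
isometry group of the non-degenerate alternating form `B v x = β x v` on `W`.
-/

set_option autoImplicit false

namespace Cfsg.Agent.Lib.Helper1.MclSPC

open Cfsg.Agent.Lib.Helper13.Symp

universe u v

section Restr

variable {F : Type u} [Field F] {V : Type v} [AddCommGroup V] [Module F V]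

/-- Restriction to `W` of a subgroup of `GL(V)` preserving `W`, as endomorphisms of `W`. -/
def restrEnd (W : Submodule F V) (K : Subgroup (V ≃ₗ[F] V))
    (hK : ∀ k ∈ K, ∀ v ∈ W, k v ∈ W) : ↥K →* Module.End F ↥W where
  toFun k := ((k : V ≃ₗ[F] V) : V →ₗ[F] V).restrict (hK k k.2)
  map_one' := by
    ext v
    simp
  map_mul' a b := by
    ext v
    simp

theorem restrEnd_apply (W : Submodule F V) (K : Subgroup (V ≃ₗ[F] V))
    (hK : ∀ k ∈ K, ∀ v ∈ W, k v ∈ W) (k : ↥K) (v : ↥W) :
    ((restrEnd W K hK k v : ↥W) : V) = (k : V ≃ₗ[F] V) (v : V) := rfl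

/-- Restriction to `W` of a subgroup of `GL(V)` preserving `W`, as automorphisms of `W`. -/
def restr (W : Submodule F V) (K : Subgroup (V ≃ₗ[F] V))
    (hK : ∀ k ∈ K, ∀ v ∈ W, k v ∈ W) : ↥K →* (↥W ≃ₗ[F] ↥W) :=
  (LinearMap.GeneralLinearGroup.generalLinearEquiv F ↥W).toMonoidHom.comp
    (restrEnd W K hK).toHomUnits

theorem restr_apply (W : Submodule F V) (K : Subgroup (V ≃ₗ[F] V))
    (hK : ∀ k ∈ K, ∀ v ∈ W, k v ∈ W) (k : ↥K) (v : ↥W) :
    ((restr W K hK k v : ↥W) : V) = (k : V ≃ₗ[F] V) (v : V) := by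
  rw [← restrEnd_apply W K hK k v]
  rfl

end Restr

theorem main : Cfsg.Agent.Lib.Helper83.MclStmt.SPC.{u, v} := by
  intro F _ V _ _ _ W C _hWC β _h1 h2 h3 K hK
  classical
  -- alternation on W
  have halt : ∀ x ∈ W, ∀ y ∈ W, β x y = - β y x := by
    intro x hx y hy
    have h := h2 (x + y) (W.add_mem hx hy)
    simp only [map_add, LinearMap.add_apply, h2 x hx, h2 y hy] at h
    linear_combination h
  -- elements of K preserve W, with their inverses
  have hgen : ∀ k ∈ K, ∀ v ∈ W, k v ∈ W ∧ k⁻¹ v ∈ W := by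
    intro k hk
    rw [hK] at hk
    induction hk using Subgroup.closure_induction with
    | mem t ht =>
      obtain ⟨x, c, h, hx, rfl⟩ := ht
      intro v hv
      constructor
      · rw [LinearEquiv.transvection.apply]
        exact W.add_mem hv (W.smul_mem _ hx)
      · rw [LinearEquiv.transvection.inv_eq' h (by rw [LinearMap.neg_apply, h, neg_zero]),
          LinearEquiv.transvection.apply]
        exact W.add_mem hv (W.smul_mem _ hx)
    | one =>
      intro v hv
      exact ⟨hv, by simpa using hv⟩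
    | mul a b _ _ ha hb =>
      intro v hv
      refine ⟨?_, ?_⟩
      · rw [LinearEquiv.mul_apply]
        exact (ha _ (hb v hv).1).1
      · rw [mul_inv_rev, LinearEquiv.mul_apply]
        exact (hb _ (ha v hv).2).2
    | inv a _ ha =>
      intro v hv
      exact ⟨(ha v hv).2, by rw [inv_inv]; exact (ha v hv).1⟩
  have hKW : ∀ k ∈ K, ∀ v ∈ W, k v ∈ W := fun k hk v hv => (hgen k hk v hv).1
  -- elements of K preserve β on W
  have hiso : ∀ k ∈ K, ∀ v ∈ W, ∀ w ∈ W, β (k v) (k w) = β v w := by
    intro k hk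
    have hk' := hk
    rw [hK] at hk'
    induction hk' using Subgroup.closure_induction with
    | mem t ht =>
      obtain ⟨x, c, h, hx, rfl⟩ := ht
      intro v hv w hw
      simp only [LinearEquiv.transvection.apply, map_add, map_smul, LinearMap.add_apply,
        LinearMap.smul_apply, smul_eq_mul, h2 x hx, halt v hv x hx]
      ring
    | one =>
      intro v _ w _
      rfl
    | mul a b ha' hb' ha hb =>
      have haK : a ∈ K := by rw [hK]; exact ha'
      have hbK : b ∈ K := by rw [hK]; exact hb'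
      intro v hv w hw
      rw [LinearEquiv.mul_apply, LinearEquiv.mul_apply,
        ha haK _ (hKW b hbK v hv) _ (hKW b hbK w hw), hb hbK v hv w hw]
    | inv a ha' ha =>
      have haK : a ∈ K := by rw [hK]; exact ha'
      intro v hv w hw
      have e := ha haK _ (hgen a haK v hv).2 _ (hgen a haK w hw).2
      rw [← e]
      congr 2 <;> exact (LinearEquiv.apply_symm_apply a _)
  -- the form
  obtain ⟨B, hBapp⟩ : ∃ B : LinearMap.BilinForm F ↥W, ∀ v x : ↥W, B v x = β (x : V) (v : V) :=
    ⟨(β.domRestrict₁₂ W W).flip, fun v x => rfl⟩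
  have hA : B.IsAlt := fun v => by rw [hBapp]; exact h2 v v.2
  have hB : B.Nondegenerate := by
    constructor
    · intro v hv
      by_contra hne
      obtain ⟨y, hy, hyne⟩ := h3 (v : V) v.2 (fun h => hne (Subtype.ext h))
      apply hyne
      have h := hv ⟨y, hy⟩
      rw [hBapp] at h
      rw [halt _ v.2 _ hy, h, neg_zero]
    · intro v hv
      by_contra hne
      obtain ⟨y, hy, hyne⟩ := h3 (v : V) v.2 (fun h => hne (Subtype.ext h))
      apply hyne
      have h := hv ⟨y, hy⟩
      rw [hBapp] at h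
      exact h
  refine ⟨restr W K hKW, restr_apply W K hKW, B, hA, hB, ?_⟩
  ext f
  simp only [Set.mem_ofPred_eq, SetLike.mem_coe, MonoidHom.mem_range]
  constructor
  · rintro ⟨k, rfl⟩ x y
    rw [hBapp, hBapp, restr_apply, restr_apply]
    exact hiso k k.2 y y.2 x x.2
  · intro hf
    obtain ⟨s, hs⟩ := (Module.Finite.fg_top : (⊤ : Submodule F ↥W).FG)
    obtain ⟨g, hg, hgf⟩ := witt_T B hB hA (f : ↥W →ₗ[F] ↥W) s (fun x _ x' _ => hf x x')
      (fun x _ hx => by simpa using hx)
    have hgf' : g = f := by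
      ext x
      exact congrArg Subtype.val (hgf x (by rw [hs]; trivial))
    rw [← hgf']
    have hle : T B hA ≤ (restr W K hKW).range := by
      unfold T
      rw [Subgroup.closure_le]
      rintro t ⟨u, c, rfl⟩
      have h0 : (c • β (u : V)) (u : V) = 0 := by
        rw [LinearMap.smul_apply, h2 _ u.2, smul_zero]
      have hmem : LinearEquiv.transvection h0 ∈ K := by
        rw [hK]
        exact Subgroup.subset_closure ⟨(u : V), c, h0, u.2, rfl⟩
      refine ⟨⟨_, hmem⟩, ?_⟩
      ext v
      rw [restr_apply, transv_apply, LinearEquiv.transvection.apply, hBapp]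
      simp
    exact hle hg

end Cfsg.Agent.Lib.Helper1.MclSPC
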