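import Mathlib
import Cfsg.Agent.Lib.Helper87.NRStmt

/-!
# S5142, piece PELT: if `ρ = γ ∘ μ` is a map of the `Γ`-invariant system `I`, with `γ ∈ Γ` and `μ`
an automorphism of `N` of `p`-power order, then `μ ∈ Aut_I(N)`.
-/

set_option autoImplicit false

namespace Cfsg.Agent.Lib.Helper1.NRPELT

open Cfsg Cfsg.FusionSystem Cfsg.Agent.H85

universe u

/-- [PELT] -/
theorem main : Cfsg.Agent.Lib.Helper87.NRStmt.PElt.{u} := by
  intro Ω _ T _ p _ I Γ hinv hpow N hN γ hγ ρ hρ μ hρμ k hk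
  -- the iterates `ρ_j = γ^j ∘ μ^j`
  have key : ∀ j : ℕ, ∃ ρj ∈ I.Hom N, ∀ x : N,
      ρj x = (((γ ^ j) ⟨(((μ ^ j) x : N) : Ω), hN ((μ ^ j) x).2⟩ : T) : Ω) := by
    intro j
    induction j with
    | zero =>
      refine ⟨N.subtype, subtype_mem I hN, fun x => ?_⟩
      simp
    | succ j ih =>
      obtain ⟨ρj, hρj, hj⟩ := ih
      obtain ⟨χ, hχ, hχx⟩ := hinv γ hγ N hN ρj hρj
      have hval : ∀ x : N, ρ x ∈ autImage γ N := by
        intro x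
        rw [hρμ x]
        exact mem_autImage γ hN (μ x)
      refine ⟨χ.comp (ρ.codRestrict (autImage γ N) hval), I.comp_mem hρ hχ hval, fun x => ?_⟩
      have hρjT : ∀ y : N, ρj y ∈ T := (I.le_of_mem hρj).2
      have e1 : (ρ.codRestrict (autImage γ N) hval x) = autRes γ hN (μ x) := by
        apply Subtype.ext
        rw [coe_autRes]
        exact hρμ x
      show χ (ρ.codRestrict (autImage γ N) hval x) = _
      rw [e1, hχx (μ x) (hρjT (μ x))]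
      have e2 : (⟨ρj (μ x), hρjT (μ x)⟩ : T) =
          (γ ^ j) ⟨(((μ ^ j) (μ x) : N) : Ω), hN ((μ ^ j) (μ x)).2⟩ := Subtype.ext (hj (μ x))
      rw [e2]
      have e3 : (μ ^ (j + 1)) x = (μ ^ j) (μ x) := by rw [pow_succ]; rfl
      have e4 : ∀ z : T, γ ((γ ^ j) z) = (γ ^ (j + 1)) z := by
        intro z; rw [pow_succ']; rfl
      rw [e4]
      let f : N → Ω := fun y => (((γ ^ (j + 1)) ⟨(y : Ω), hN y.2⟩ : T) : Ω)
      show f ((μ ^ j) (μ x)) = f ((μ ^ (j + 1)) x)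
      rw [e3]
  obtain ⟨m, hm, hγm⟩ := hpow γ hγ
  obtain ⟨ρm, hρm, hmx⟩ := key m
  have hinvm : (γ ^ m)⁻¹ ∈ I.autGroup T := (I.autGroup T).inv_mem hγm
  have h1 : T.subtype.comp ((γ ^ m)⁻¹ : MulAut T).toMonoidHom ∈ I.Hom T :=
    (mem_autGroup_iff I le_rfl _).mp hinvm
  have hρmT : ∀ x : N, ρm x ∈ T := (I.le_of_mem hρm).2
  have h2 : N.subtype.comp (μ ^ m).toMonoidHom ∈ I.Hom N := by
    refine comp_mem' I hρm h1 hρmT (fun x => ?_)
    show (((μ ^ m) x : N) : Ω) = (((γ ^ m)⁻¹ ⟨ρm x, hρmT x⟩ : T) : Ω)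
    have e : (⟨ρm x, hρmT x⟩ : T) = (γ ^ m) ⟨(((μ ^ m) x : N) : Ω), hN ((μ ^ m) x).2⟩ :=
      Subtype.ext (hmx x)
    rw [e, MulAut.inv_apply_self]
  have h3 : μ ^ m ∈ I.autGroup N := (mem_autGroup_iff I hN _).mpr h2
  have hcop : Nat.Coprime m (orderOf μ) := by rw [hk]; exact Nat.Coprime.pow_right k hm
  obtain ⟨n, hn⟩ := exists_pow_eq_self_of_coprime hcop
  rw [← hn]
  exact (I.autGroup N).pow_mem h3 n

end Cfsg.Agent.Lib.Helper1.NRPELT
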