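import Mathlib

set_option autoImplicit false

/-!
# Piece statements for S4020 (call by helper1)

(D): for every prime `p`, `p`-subgroups of equal order are conjugate.  Claim: every Sylow subgroup is
cyclic, elementary abelian or `Q₈`.

Plan.  `P` a Sylow `p`-subgroup.
* `P` has an element of order `p²`: `P` has a unique subgroup of order `p` (UNIQ: else `Z_p × Z_p`
  and `Z_{p²}` would be conjugate), so `P` is cyclic or generalized quaternion (landed S0016);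
  `Q_{2^(n+2)}`, `n ≥ 2`, has an abelian and a nonabelian subgroup of order 8 (Q16): CYCQ8.
* `P` has exponent `p`: `#P ≤ p²` abelian; `#P ≥ p⁴` and nonabelian: an abelian (AB3) and a
  nonabelian (NONAB3) subgroup of order `p³`, contradiction (BIG); `#P = p³` nonabelian is
  impossible (NOEXTRA), by induction on `#G`: `z ∈ Z(P)` is fused to a noncentral `b ∈ P`; a second
  Sylow subgroup `P'` contains `z, b` and centralizes `b` (SYLB); `x ∈ P`, `y ∈ P'` act on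
  `E = ⟨z, b⟩` by `b ↦ b z^a`, `z ↦ z b^c` (COMMZ, NONCENT) and `w = x y^j` with `a c j ≡ -2` has
  `w² z w⁻² = z⁻¹`: `G` has an element of order 4 (WORD, EVENCORE).  So a Sylow 2-subgroup has a
  unique involution `t` (UNIQ), and Glauberman's `Z*` theorem (landed S0215) gives `N ⊴ G` of odd
  order with `[t, G] ≤ N` (ISO).  If `P ⊓ N ≠ ⊥` then `P ≤ N` and the fusion takes place inside
  `N`: `N` has an element of order 4 (ODDCASE).  Otherwise `G ⧸ N` (or `G ⧸ ⟨t⟩` if `N = ⊥`, `t`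
  central) is a smaller group with (D) (QUOT) whose Sylow `p`-subgroup is the image of `P` (QSTEP).
-/

namespace Cfsg.Agent.Lib.Helper1.PDStmt

universe u

/-- (D): for every prime `p`, `p`-subgroups of equal order are conjugate (the hypothesis of S4020,
verbatim). -/
def PropD (G : Type u) [Group G] : Prop :=
  ∀ p : ℕ, p.Prime → ∀ H K : Subgroup G, IsPGroup p ↥H → IsPGroup p ↥K → Nat.card ↥H = Nat.card ↥K →
    ∃ g : G, K = H.map (MulAut.conj g).toMonoidHom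

/-- [UNIQ] (helper1 does it: copy of `Helper1.ACSYLUNIQ` with (D)). -/
def Uniq : Prop :=
  ∀ (G : Type u) [Group G] [Finite G], PropD G → ∀ (p : ℕ) [Fact p.Prime] (P : Sylow p G),
    (∃ x ∈ (P : Subgroup G), x ^ p ≠ 1) →
      ∃ Z₀ : Subgroup G, Z₀ ≤ (P : Subgroup G) ∧ Nat.card ↥Z₀ = p ∧
        ∀ x ∈ (P : Subgroup G), orderOf x = p → x ∈ Z₀

/-- [Q16] in `QuaternionGroup (2 ^ n)` (order `2 ^ (n + 2)`), `n ≥ 2`: `C = zpowers (a (2 ^ (n - 2)))`
is cyclic of order 8 (`QuaternionGroup.orderOf_a`), and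
`Q = {a (k * 2 ^ (n - 1)), xa (k * 2 ^ (n - 1))}` is a subgroup with 8 elements (e.g. the range of
the injective hom `QuaternionGroup 2 →* QuaternionGroup (2 ^ n)`, `a i ↦ a (2 ^ (n-1) * i.val)`,
`xa i ↦ xa (2 ^ (n-1) * i.val)`), nonabelian: `a (2^(n-1)) * xa 0 ≠ xa 0 * a (2^(n-1))`. -/
def Q16 : Prop :=
  ∀ n : ℕ, 2 ≤ n → ∃ C Q : Subgroup (QuaternionGroup (2 ^ n)),
    Nat.card ↥C = 8 ∧ Nat.card ↥Q = 8 ∧ (∀ a ∈ C, ∀ b ∈ C, a * b = b * a) ∧
      ∃ a ∈ Q, ∃ b ∈ Q, a * b ≠ b * a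

/-- [CYCQ8] (from `Uniq`, `Q16`, and the landed `Cfsg.Agent.S0016.result` for the group `↥P`).
`Z₀` from `Uniq`; subgroups `H, K` of `↥P` of order `p` are generated by elements of order `p`, whose
images lie in `Z₀`: `H.map P.subtype = Z₀ = K.map P.subtype` (equal cards), so `H = K`.  S0016:
`↥P` cyclic, or `p = 2` and `e : ↥P ≃* QuaternionGroup (2 ^ n)`.  `n = 0`: `QuaternionGroup 1` is
cyclic (`QuaternionGroup.quaternionGroupOneIsCyclic` or order 4 with `a 1` of order 4); `n = 1`: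
done; `n ≥ 2`: `Q16` gives `C, Q`; `(C.comap e).map P.subtype` and `(Q.comap e).map P.subtype` are
2-subgroups of `G` of order 8, conjugate by (D), one abelian and one not. -/
def CycQ8 : Prop :=
  ∀ (G : Type u) [Group G] [Finite G], PropD G → ∀ (p : ℕ) [Fact p.Prime] (P : Sylow p G),
    (∃ x ∈ (P : Subgroup G), x ^ p ≠ 1) →
      IsCyclic ↥(P : Subgroup G) ∨ Nonempty (↥(P : Subgroup G) ≃* QuaternionGroup 2)

/-- [QUOT] (D) passes to quotients.  `H̄, K̄ ≤ G ⧸ N` `q`-groups of equal order; `H₁ = H̄.comap mk`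
(`#H₁ = #N * #H̄`), `H₀` = a Sylow `q`-subgroup of `↥H₁` mapped into `G`, likewise `K₀`:
`#H₀ = #K₀` (the `q`-part of `#N * #H̄`).  `H₀.map mk ≤ H̄` has order `#H₀ / #(H₀ ⊓ N) ≥ #H̄`
(`H₀ ⊓ N` is a `q`-subgroup of `N`), so `H₀.map mk = H̄`.  (D): `K₀ = H₀.map (conj g)`, hence
`K̄ = H̄.map (conj (mk g))` (`Subgroup.map_map`). -/
def Quot : Prop :=
  ∀ (G : Type u) [Group G] [Finite G], PropD G → ∀ (N : Subgroup G) [N.Normal], PropD (G ⧸ N)

/-- [COMMZ] `P` of order `p³`, `z ∈ Z(P)` of order `p`: commutators of `P` lie in `zpowers z`.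
(`zpowers z` (inside `↥P`) is central, so normal; the quotient has order `p²`, so is commutative:
`IsPGroup.commutative_of_card_eq_prime_sq`; `x b x⁻¹ b⁻¹ = z ^ a`, and `z ^ a` commutes with `b`.) -/
def CommZ : Prop :=
  ∀ (X : Type u) [Group X] [Finite X] (p : ℕ) [Fact p.Prime] (P : Subgroup X), Nat.card ↥P = p ^ 3 →
    ∀ z ∈ P, orderOf z = p → (∀ x ∈ P, x * z = z * x) →
      ∀ x ∈ P, ∀ b ∈ P, ∃ a : ℕ, x * b * x⁻¹ = b * z ^ a

/-- [NONCENT] `P` of order `p³` with central elements `z` (of order `p`) and `b ∉ zpowers z` is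
abelian.  (`#Z(P) > p`, so `#Z(P) ≥ p²`, `P ⧸ Z(P)` has order `≤ p`: cyclic;
`commutative_of_cyclic_center_quotient`.) -/
def NonCent : Prop :=
  ∀ (X : Type u) [Group X] [Finite X] (p : ℕ) [Fact p.Prime] (P : Subgroup X), Nat.card ↥P = p ^ 3 →
    ∀ z ∈ P, orderOf z = p → (∀ x ∈ P, x * z = z * x) →
    ∀ b ∈ P, b ∉ Subgroup.zpowers z → (∀ x ∈ P, x * b = b * x) →
      ∀ x ∈ P, ∀ y ∈ P, x * y = y * x

/-- [SYLB] `z ∈ Z(P)`, `b ∈ P` with `zpowers b = k (zpowers z) k⁻¹`: a Sylow `p`-subgroup `P'`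
containing `z, b` and centralizing `b`.  Proof.  `b = k z^i k⁻¹` is central in `P'' = k P k⁻¹`, so
`P'' ≤ C = centralizer {b}`, and `z, b ∈ C`.  In the group `↥C`: the `p`-subgroup
`(closure {z, b}).subgroupOf C` (a subgroup of `P`) lies in a Sylow `p`-subgroup `Q` of `↥C`
(`IsPGroup.exists_le_sylow`); `#Q ≥ #P''` (`P''.subgroupOf C` lies in a Sylow subgroup of `↥C`, all
of the same order), so `Q.map C.subtype` is a `p`-subgroup of `X` of order `≥ #P`: it is a Sylow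
`p`-subgroup `P'` of `X` (`IsPGroup.exists_le_sylow` + cards), all of whose elements are in `C`. -/
def SylB : Prop :=
  ∀ (X : Type u) [Group X] [Finite X] (p : ℕ) [Fact p.Prime] (P : Sylow p X),
    ∀ z ∈ (P : Subgroup X), (∀ x ∈ (P : Subgroup X), x * z = z * x) → ∀ b ∈ (P : Subgroup X),
    (∃ k : X, Subgroup.zpowers b = (Subgroup.zpowers z).map (MulAut.conj k).toMonoidHom) →
      ∃ P' : Sylow p X, z ∈ (P' : Subgroup X) ∧ b ∈ (P' : Subgroup X) ∧
        ∀ y ∈ (P' : Subgroup X), y * b = b * y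

/-- [WORD] pure computation.  Choose `j : ℕ` with `p ∣ a * c * j + 2` (`a c` is invertible mod `p`),
`w = x * y ^ j`.  `y^j z y^-j = z b^(c j)` (induction), `w z w⁻¹ = z (b z^a)^(c j)
= z^(a c j + 1) b^(c j) = z⁻¹ b^(c j)`, `w b w⁻¹ = b z^a`, so with `u = w²`:
`u z u⁻¹ = (z⁻¹ b^(c j))⁻¹ (b z^a)^(c j) = z^(a c j + 1) = z⁻¹`.  `n = orderOf w`: `n` odd gives
`z = u^n z u^-n = z⁻¹`, so `z² = 1 = z^p`, `z = 1`; so `n = 2 n'`, `u^n' = 1`, and `n'` odd gives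
`z = z⁻¹` again: `4 ∣ n`, `q = w ^ (n / 4)` (`orderOf_pow_of_dvd`). -/
def Word : Prop :=
  ∀ (X : Type u) [Group X] [Finite X] (p : ℕ) [Fact p.Prime], p ≠ 2 → ∀ (z b x y : X) (a c : ℕ),
    z ≠ 1 → z ^ p = 1 → b ^ p = 1 → z * b = b * z → x * z = z * x → x * b * x⁻¹ = b * z ^ a →
    y * b = b * y → y * z * y⁻¹ = z * b ^ c → ¬ p ∣ a → ¬ p ∣ c →
      ∃ q : X, orderOf q = 4

/-- [EVENCORE] (from `SylB`, `CommZ`, `NonCent`, `Word`)  `P` Sylow of order `p³` and exponent `p`,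
`z ≠ 1` central in `P`, `b ∈ P` noncentral (`x₀ b ≠ b x₀`), `zpowers b = k (zpowers z) k⁻¹`:
`X` has an element of order 4.  Proof.  `orderOf z = p = orderOf b`; `b ∉ zpowers z` (`z` central).
`CommZ` for `P, z`: `x₀ b x₀⁻¹ = b z^a`, `p ∤ a` (else `x₀ b = b x₀`).  `P'` from `SylB`,
`#P' = p³`.  Some `y ∈ P'` has `y z ≠ z y`: otherwise `NonCent` (for `P'`, central `b`, and
`z ∉ zpowers b`) makes `P'` abelian, hence `P` (conjugate Sylow subgroups), but `x₀ b ≠ b x₀`.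
`CommZ` for `P', b`: `y z y⁻¹ = z b^c`, `p ∤ c`.  `Word`. -/
def EvenCore : Prop :=
  ∀ (X : Type u) [Group X] [Finite X] (p : ℕ) [Fact p.Prime], p ≠ 2 → ∀ P : Sylow p X,
    Nat.card ↥(P : Subgroup X) = p ^ 3 → (∀ x ∈ (P : Subgroup X), x ^ p = 1) →
    ∀ z ∈ (P : Subgroup X), z ≠ 1 → (∀ x ∈ (P : Subgroup X), x * z = z * x) →
    ∀ b ∈ (P : Subgroup X), (∃ x ∈ (P : Subgroup X), x * b ≠ b * x) →
    (∃ k : X, Subgroup.zpowers b = (Subgroup.zpowers z).map (MulAut.conj k).toMonoidHom) →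
      ∃ q : X, orderOf q = 4

/-- [ISO] (from `Uniq` and the landed `Cfsg.Agent.S0215.result` = Glauberman's `Z*`)  `zpowers q`
is a 2-group, inside a Sylow 2-subgroup `S`; `q ^ 2 ≠ 1`, so `Uniq` (`p = 2`) gives `Z₀ ≤ S` of
order 2 containing every element of order 2 of `S`; `t ≠ 1` in `Z₀`; a conjugate `g t g⁻¹ ∈ S` has
order 2, lies in `Z₀ = {1, t}`, so equals `t`.  S0215 gives `N`. -/
def Iso : Prop :=
  ∀ (G : Type u) [Group G] [Finite G], PropD G → (∃ q : G, orderOf q = 4) →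
    ∃ t : G, orderOf t = 2 ∧ ∃ N : Subgroup G, N.Normal ∧ Odd (Nat.card ↥N) ∧
      ∀ g : G, t * g * t⁻¹ * g⁻¹ ∈ N

/-- [QSTEP] if `P ⊓ M = ⊥` the image of `P` in `G ⧸ M` is a Sylow `p`-subgroup of the same order.
(`mk` is injective on `P`; `P ⊓ M` is a Sylow `p`-subgroup of the normal subgroup `M`, so `p ∤ #M`
and `#P` is the full `p`-part of `#(G ⧸ M)`; `Sylow.ofCard`.  Or `Sylow.mapSurjective` if
available.) -/
def QStep : Prop :=
  ∀ (G : Type u) [Group G] [Finite G] (M : Subgroup G) [M.Normal] (p : ℕ) [Fact p.Prime]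
    (P : Sylow p G), (P : Subgroup G) ⊓ M = ⊥ →
      ∃ Q : Sylow p (G ⧸ M), (Q : Subgroup (G ⧸ M)) = (P : Subgroup G).map (QuotientGroup.mk' M) ∧
        Nat.card ↥(Q : Subgroup (G ⧸ M)) = Nat.card ↥(P : Subgroup G)

/-- [ODDCASE] (from `EvenCore`)  `N ⊴ G` of odd order meeting `P` (order `p³`, exponent `p`): `P`
is abelian.  Proof.  Suppose `x₀ b ≠ b x₀` in `P`.  `p ≠ 2` (`p ∣ #N`).  `z ≠ 1` central in `P`
(`IsPGroup.center_nontrivial`), `n₀ ≠ 1` in `P ⊓ N`: `zpowers z`, `zpowers n₀` have order `p`, so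
are conjugate (D) and `z ∈ N`; likewise every `x ∈ P` (`x = 1` or of order `p`) is in `N`:
`P ≤ N`.  (D): `zpowers b = g (zpowers z) g⁻¹`.  `P` and `g P g⁻¹` are Sylow `p`-subgroups of `N`
(`Sylow.subtype`), so `n g P g⁻¹ n⁻¹ = P` for some `n ∈ N`; `z' = (n g) z (n g)⁻¹` is central in
`P`, `≠ 1`, and `zpowers b = n⁻¹ (zpowers z') n`.  `EvenCore` for the group `↥N`, its Sylow
subgroup `P.subtype _`, `z'`, `b`, `k = n⁻¹`: an element of order 4 in `↥N`, so `4 ∣ #N`. -/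
def OddCase : Prop :=
  ∀ (G : Type u) [Group G] [Finite G], PropD G → ∀ (N : Subgroup G) [N.Normal], Odd (Nat.card ↥N) →
    ∀ (p : ℕ) [Fact p.Prime] (P : Sylow p G), Nat.card ↥(P : Subgroup G) = p ^ 3 →
    (∀ x ∈ (P : Subgroup G), x ^ p = 1) → (P : Subgroup G) ⊓ N ≠ ⊥ →
      ∀ a ∈ (P : Subgroup G), ∀ b ∈ (P : Subgroup G), a * b = b * a

/-- [NOEXTRA] (from `Quot`, `EvenCore`, `Iso`, `QStep`, `OddCase`)  a Sylow subgroup of order `p³`
and exponent `p` is abelian.  Strong induction on `Nat.card G` (all groups in `Type u`).  Suppose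
`a b ≠ b a` in `P`.  `p ≠ 2` (exponent 2 is abelian).  `z ≠ 1` central in `P`; `zpowers z`,
`zpowers b` are conjugate (D); `EvenCore`: an element of order 4; `Iso`: `t`, `N`.
`P ⊓ N ≠ ⊥`: `OddCase`.  `P ⊓ N = ⊥`: `M = N` if `N ≠ ⊥`, else `M = zpowers t` (`t` is central as
`t g t⁻¹ g⁻¹ ∈ ⊥`; `P ⊓ M = ⊥` as `p` is odd); `M ≠ ⊥`, so `#(G ⧸ M) < #G`; `Quot`, `QStep`: `Q`
of order `p³` and exponent `p` in `G ⧸ M`, abelian by induction; `mk (a b) = mk (b a)` and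
`P ⊓ M = ⊥` give `a b = b a`. -/
def NoExtra : Prop :=
  ∀ (G : Type u) [Group G] [Finite G], PropD G → ∀ (p : ℕ) [Fact p.Prime] (P : Sylow p G),
    Nat.card ↥(P : Subgroup G) = p ^ 3 → (∀ x ∈ (P : Subgroup G), x ^ p = 1) →
      ∀ a ∈ (P : Subgroup G), ∀ b ∈ (P : Subgroup G), a * b = b * a

/-- [NONAB3] a nonabelian `p`-group of exponent `p` has a nonabelian subgroup of order `p³`.
Proof.  `P ⧸ Z(P)` is a nontrivial `p`-group, so has a central element `≠ 1`: `x ∈ P`, `x ∉ Z(P)`,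
all `x y x⁻¹ y⁻¹` central in `P`; `y` with `c = x y x⁻¹ y⁻¹ ≠ 1`.  `H = {x^i y^j c^k}` is a subgroup
(`y x = x y c⁻¹`, `c` central, `x^p = y^p = c^p = 1`) with `≤ p³` elements, nonabelian, so
`#H = p³` (a `p`-group of order `≤ p²` is abelian). -/
def NonAb3 : Prop :=
  ∀ (X : Type u) [Group X] [Finite X] (p : ℕ) [Fact p.Prime] (P : Subgroup X), IsPGroup p ↥P →
    (∀ x ∈ P, x ^ p = 1) → (∃ a ∈ P, ∃ b ∈ P, a * b ≠ b * a) →
      ∃ H : Subgroup X, H ≤ P ∧ Nat.card ↥H = p ^ 3 ∧ ∃ a ∈ H, ∃ b ∈ H, a * b ≠ b * a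

/-- [AB3] a `p`-group of exponent `p` and order divisible by `p⁴` has an abelian subgroup of order
`p³`.  Proof.  `Q ≤ P` of order `p⁴` (`Sylow.exists_subgroup_card_pow_prime`); `z ≠ 1` central in
`Q`; `Q ⧸ zpowers z` has a central element `≠ 1`: `x ∈ Q`, `x ∉ zpowers z`, all `x y x⁻¹ y⁻¹` in
`zpowers z`; `y ↦ x y x⁻¹ y⁻¹` is a homomorphism `Q → zpowers z` with kernel `C = C_Q(x)`, so
`#C ≥ p³`; `A₂ = {z^i x^j}` has `≤ p²` elements and lies in `C`; `w ∈ C`, `w ∉ A₂`;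
`A = closure {z, x, w}` is abelian, of order `> p²`... take a subgroup of order `p³` of it (or show
`#A = p³`). -/
def Ab3 : Prop :=
  ∀ (X : Type u) [Group X] [Finite X] (p : ℕ) [Fact p.Prime] (P : Subgroup X), IsPGroup p ↥P →
    (∀ x ∈ P, x ^ p = 1) → p ^ 4 ∣ Nat.card ↥P →
      ∃ A : Subgroup X, A ≤ P ∧ Nat.card ↥A = p ^ 3 ∧ ∀ a ∈ A, ∀ b ∈ A, a * b = b * a

/-- [BIG] (from `NonAb3`, `Ab3`)  a Sylow subgroup of exponent `p` and order `≥ p⁴` is abelian: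
otherwise `H` (nonabelian) and `A` (abelian) of order `p³` are conjugate by (D). -/
def Big : Prop :=
  ∀ (G : Type u) [Group G] [Finite G], PropD G → ∀ (p : ℕ) [Fact p.Prime] (P : Sylow p G),
    (∀ x ∈ (P : Subgroup G), x ^ p = 1) → p ^ 4 ∣ Nat.card ↥(P : Subgroup G) →
      ∀ a ∈ (P : Subgroup G), ∀ b ∈ (P : Subgroup G), a * b = b * a

/-- [EXPAB] (from `Big`, `NoExtra`)  a Sylow subgroup of exponent `p` is abelian.  `#P = p ^ k`:
`k ≤ 2` (`IsPGroup.commutative_of_card_eq_prime_sq`, prime order is cyclic), `k = 3` (`NoExtra`),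
`k ≥ 4` (`Big`). -/
def ExpAb : Prop :=
  ∀ (G : Type u) [Group G] [Finite G], PropD G → ∀ (p : ℕ) [Fact p.Prime] (P : Sylow p G),
    (∀ x ∈ (P : Subgroup G), x ^ p = 1) →
      ∀ a ∈ (P : Subgroup G), ∀ b ∈ (P : Subgroup G), a * b = b * a

end Cfsg.Agent.Lib.Helper1.PDStmt
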