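import Mathlib
import Cfsg.Prelude.Def_Transfer
import Cfsg.Agent.Lib.Helper1.PDStmt
import Cfsg.Agent.S4023

/-!
# S4020: final assembly from the landed S4023 (single prime) and `NoExtra`.
-/

set_option autoImplicit false

namespace Cfsg.Agent.Lib.Helper1.PDFin

open Cfsg.Agent.Lib.Helper1.PDStmt

universe u

theorem final (hN : NoExtra.{u}) {G : Type u} [Group G] [Finite G]
    (hD : ∀ p : ℕ, p.Prime → ∀ H K : Subgroup G, IsPGroup p H → IsPGroup p K →
      Nat.card H = Nat.card K → ∃ g : G, K = H.map (MulAut.conj g).toMonoidHom)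
    {p : ℕ} [hp : Fact p.Prime] (P : Sylow p G) :
    IsCyclic P ∨ Cfsg.IsElementaryAbelian p (P : Subgroup G) ∨
      Nonempty ((P : Subgroup G) ≃* QuaternionGroup 2) := by
  rcases Cfsg.Agent.S4023.result (hD p hp.out) P with h | h | h | h
  · exact Or.inl h
  · exact Or.inr (Or.inl h)
  · exact Or.inr (Or.inr h.2)
  · exfalso
    obtain ⟨_, hnc, hcard, hexp⟩ := h
    apply hnc
    have hx : ∀ x ∈ (P : Subgroup G), x ^ p = 1 := by
      intro x hx
      have h1 := Monoid.pow_exponent_eq_one (⟨x, hx⟩ : (P : Subgroup G))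
      rw [hexp] at h1
      have h2 := congrArg Subtype.val h1
      simpa using h2
    exact ⟨⟨fun a b => Subtype.ext (hN G hD p P hcard hx a.1 a.2 b.1 b.2)⟩⟩

end Cfsg.Agent.Lib.Helper1.PDFin
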