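import Mathlib
import Cfsg.Agent.Lib.Helper1.PDStmt
import Cfsg.Agent.Lib.Helper91.ConjQuot

/-!
# S4020 / QUOT: (D) passes to quotients (wrapper of helper91's `ConjQuot.conj_quot`).
-/

set_option autoImplicit false

namespace Cfsg.Agent.Lib.Helper1.PDQUOT

open Cfsg.Agent.Lib.Helper1.PDStmt

universe u

theorem main : Quot.{u} := by
  intro G _ _ hD N _
  exact Cfsg.Agent.Lib.Helper91.ConjQuot.conj_quot N hD

end Cfsg.Agent.Lib.Helper1.PDQUOT
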