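import Mathlib
import Cfsg.Agent.Lib.Helper1.PDStmt

/-!
# S4020 / UNIQ: a Sylow `r`-subgroup with an element of order `r²` in a group with (D) has a
unique subgroup of order `r`.
-/

set_option autoImplicit false

namespace Cfsg.Agent.Lib.Helper1.PDUNIQ

open Cfsg.Agent.Lib.Helper1.PDStmt

universe u

theorem comm_zpowers' {G : Type u} [Group G] (g a b : G) (ha : a ∈ Subgroup.zpowers g)
    (hb : b ∈ Subgroup.zpowers g) : a * b = b * a := by
  obtain ⟨i, rfl⟩ := Subgroup.mem_zpowers_iff.mp ha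
  obtain ⟨j, rfl⟩ := Subgroup.mem_zpowers_iff.mp hb
  rw [← zpow_add, ← zpow_add, add_comm]

theorem pow_eq_one_of_mem_zpowers' {G : Type u} [Group G] (g a : G) (r : ℕ) (hg : orderOf g = r)
    (ha : a ∈ Subgroup.zpowers g) : a ^ r = 1 := by
  obtain ⟨i, rfl⟩ := Subgroup.mem_zpowers_iff.mp ha
  rw [← zpow_natCast, ← zpow_mul, mul_comm, zpow_mul, zpow_natCast, ← hg, pow_orderOf_eq_one,
    one_zpow]

theorem isMulCommutative_zpowers' {G : Type u} [Group G] (g : G) :
    IsMulCommutative ↥(Subgroup.zpowers g) :=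
  ⟨⟨fun a b => Subtype.ext (comm_zpowers' g a.1 b.1 a.2 b.2)⟩⟩

theorem main : Uniq.{u} := by
  intro G _ _ hB r hr R ⟨x, hxR, hxr⟩
  have hrp : r.Prime := hr.out
  have hpR : ∀ g ∈ (R : Subgroup G), ∃ k, orderOf g = r ^ k := by
    intro g hg
    obtain ⟨k, hk⟩ := R.isPGroup' ⟨g, hg⟩
    have h1 : g ^ r ^ k = 1 := by
      have := congrArg Subtype.val hk
      simpa using this
    exact ((Nat.dvd_prime_pow hrp).mp (orderOf_dvd_of_pow_eq_one h1)).imp fun j hj => hj.2
  -- an element of order r^2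
  obtain ⟨k, hk⟩ := hpR x hxR
  have hk2 : 2 ≤ k := by
    by_contra hlt
    apply hxr
    have h1 : orderOf x ∣ r := by
      rw [hk]
      have h2 : k ≤ 1 := by omega
      calc r ^ k ∣ r ^ 1 := pow_dvd_pow r h2
        _ = r := pow_one r
    exact orderOf_dvd_iff_pow_eq_one.mp h1
  set w := x ^ (r ^ (k - 2)) with hw
  have hwo : orderOf w = r ^ 2 := by
    rw [hw, orderOf_pow_of_dvd (pow_ne_zero _ hrp.ne_zero)
      (by rw [hk]; exact pow_dvd_pow r (by omega)), hk, Nat.pow_div (by omega) hrp.pos]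
    congr 1
    omega
  -- a central element of order r
  have hRnt : Nontrivial (R : Subgroup G) := by
    refine ⟨⟨⟨x, hxR⟩, 1, ?_⟩⟩
    intro h
    apply hxr
    have h1 : x = 1 := congrArg Subtype.val h
    rw [h1, one_pow]
  obtain ⟨c, hc1, hcne⟩ :
      ∃ c : (R : Subgroup G), c ∈ Subgroup.center (R : Subgroup G) ∧ c ≠ 1 := by
    have hnt := IsPGroup.center_nontrivial R.isPGroup'
    obtain ⟨⟨c, hc⟩, hne⟩ := exists_ne (1 : Subgroup.center (R : Subgroup G))
    exact ⟨c, hc, fun h => hne (Subtype.ext h)⟩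
  have hc0 : ∀ g ∈ (R : Subgroup G), Commute (c : G) g := by
    intro g hg
    have h1 := Subgroup.mem_center_iff.mp hc1 ⟨g, hg⟩
    have h2 := congrArg Subtype.val h1
    exact h2.symm
  obtain ⟨j, hj⟩ := hpR (c : G) c.2
  have hj1 : 1 ≤ j := by
    by_contra hlt
    have h0 : j = 0 := by omega
    rw [h0, pow_zero, orderOf_eq_one_iff] at hj
    exact hcne (Subtype.ext hj)
  set z : G := (c : G) ^ (r ^ (j - 1)) with hz
  have hzR : z ∈ (R : Subgroup G) := Subgroup.pow_mem _ c.2 _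
  have hzo : orderOf z = r := by
    rw [hz, orderOf_pow_of_dvd (pow_ne_zero _ hrp.ne_zero)
      (by rw [hj]; exact pow_dvd_pow r (by omega)), hj, Nat.pow_div (by omega) hrp.pos]
    have h1 : j - (j - 1) = 1 := by omega
    rw [h1, pow_one]
  have hzc : ∀ g ∈ (R : Subgroup G), Commute z g := fun g hg => (hc0 g hg).pow_left _
  refine ⟨Subgroup.zpowers z, (Subgroup.zpowers_le).mpr hzR, ?_, ?_⟩
  · rw [Nat.card_zpowers, hzo]
  intro y hyR hyo
  by_contra hyZ
  have hcomm : Commute z y := hzc y hyR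
  -- zpowers z ⊓ zpowers y = ⊥
  have hinf : ∀ t : G, t ∈ Subgroup.zpowers z → t ∈ Subgroup.zpowers y → t = 1 := by
    intro t htz hty
    by_contra ht1
    have hto : orderOf t = r := by
      have h1 : orderOf t ∣ r :=
        orderOf_dvd_of_pow_eq_one (pow_eq_one_of_mem_zpowers' z t r hzo htz)
      rcases (Nat.dvd_prime hrp).mp h1 with h | h
      · exact absurd (orderOf_eq_one_iff.mp h) ht1
      · exact h
    have e1 : Subgroup.zpowers t = Subgroup.zpowers z :=
      Subgroup.eq_of_le_of_card_ge ((Subgroup.zpowers_le).mpr htz)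
        (by rw [Nat.card_zpowers, Nat.card_zpowers, hzo, hto])
    have e2 : Subgroup.zpowers t = Subgroup.zpowers y :=
      Subgroup.eq_of_le_of_card_ge ((Subgroup.zpowers_le).mpr hty)
        (by rw [Nat.card_zpowers, Nat.card_zpowers, hyo, hto])
    apply hyZ
    rw [← e1, e2]
    exact Subgroup.mem_zpowers y
  let φ : ↥(Subgroup.zpowers z) × ↥(Subgroup.zpowers y) →* G :=
    MonoidHom.noncommCoprod (Subgroup.zpowers z).subtype (Subgroup.zpowers y).subtype (by
      intro m n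
      obtain ⟨i, hi⟩ := Subgroup.mem_zpowers_iff.mp m.2
      obtain ⟨l, hl⟩ := Subgroup.mem_zpowers_iff.mp n.2
      change Commute (m : G) (n : G)
      rw [← hi, ← hl]
      exact hcomm.zpow_zpow i l)
  have hφ : ∀ p, φ p = (p.1 : G) * (p.2 : G) := fun p => rfl
  have hinj : Function.Injective φ := by
    rw [injective_iff_map_eq_one]
    intro p hp
    rw [hφ] at hp
    have h1 : (p.1 : G) = (p.2 : G)⁻¹ := eq_inv_of_mul_eq_one_left hp
    have h2 : (p.1 : G) = 1 :=
      hinf _ p.1.2 (by rw [h1]; exact Subgroup.inv_mem _ p.2.2)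
    have h3 : (p.2 : G) = 1 := by
      rw [h2] at hp
      simpa using hp
    exact Prod.ext (Subtype.ext h2) (Subtype.ext h3)
  have hEcomm : IsMulCommutative ↥φ.range := by
    refine ⟨⟨fun a b => Subtype.ext ?_⟩⟩
    obtain ⟨p, hp⟩ := a.2
    obtain ⟨q, hq⟩ := b.2
    change (a : G) * (b : G) = (b : G) * (a : G)
    rw [← hp, ← hq, ← map_mul, ← map_mul]
    congr 1
    exact Prod.ext (Subtype.ext (comm_zpowers' z _ _ p.1.2 q.1.2))
      (Subtype.ext (comm_zpowers' y _ _ p.2.2 q.2.2))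
  have hEcard : Nat.card ↥φ.range = r ^ 2 := by
    rw [← Nat.card_congr (MonoidHom.ofInjective hinj).toEquiv, Nat.card_prod, Nat.card_zpowers,
      Nat.card_zpowers, hzo, hyo, pow_two]
  have hEexp : ∀ e ∈ φ.range, e ^ r = 1 := by
    rintro _ ⟨p, rfl⟩
    rw [hφ]
    have hc : Commute (p.1 : G) (p.2 : G) := by
      obtain ⟨i, hi⟩ := Subgroup.mem_zpowers_iff.mp p.1.2
      obtain ⟨l, hl⟩ := Subgroup.mem_zpowers_iff.mp p.2.2
      rw [← hi, ← hl]
      exact hcomm.zpow_zpow i l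
    rw [hc.mul_pow, pow_eq_one_of_mem_zpowers' z _ r hzo p.1.2,
      pow_eq_one_of_mem_zpowers' y _ r hyo p.2.2, one_mul]
  have hER : φ.range ≤ (R : Subgroup G) := by
    rintro _ ⟨q, rfl⟩
    rw [hφ]
    exact Subgroup.mul_mem _ ((Subgroup.zpowers_le).mpr hzR q.1.2)
      ((Subgroup.zpowers_le).mpr hyR q.2.2)
  have hwR : w ∈ (R : Subgroup G) := Subgroup.pow_mem _ hxR _
  obtain ⟨g, hg⟩ := hB r hrp φ.range (Subgroup.zpowers w) (R.isPGroup'.to_le hER)
    (R.isPGroup'.to_le ((Subgroup.zpowers_le).mpr hwR))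
    (by rw [hEcard, Nat.card_zpowers, hwo])
  have hwE : w ∈ (φ.range).map (MulAut.conj g).toMonoidHom := by
    rw [← hg]
    exact Subgroup.mem_zpowers w
  obtain ⟨e, he, hew⟩ := Subgroup.mem_map.mp hwE
  have hwr : w ^ r = 1 := by
    rw [← hew, ← map_pow, hEexp e he, map_one]
  have h1 : r ^ 2 ∣ r := by
    rw [← hwo]
    exact orderOf_dvd_of_pow_eq_one hwr
  have h2 := Nat.le_of_dvd hrp.pos h1
  have h3 := hrp.two_le
  nlinarith

end Cfsg.Agent.Lib.Helper1.PDUNIQ
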