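import Mathlib
import Cfsg.Agent.Lib.Helper44.PGStmt
import Cfsg.Agent.Lib.Helper43.SpBasic
import Cfsg.Agent.Lib.Helper42.SpOrdD

set_option autoImplicit false

/-!
helper1: piece S2474/CNEC4 (second seat).  Necessity for `2 * r` in `PSp(2n, q)`:
an element of order `2 * r` (`r` an odd prime, prime to `p`) forces `CritIV q n r`.

Lift to `A ∈ Sp`: `A ^ (2r) = c • 1`, `c = ± 1`, while `A ^ 2`, `A ^ r` are not `± 1`.
`c = 1`: `t := A ^ r` is an involution `≠ ± 1`, blocks `a + b = 2n` both positive and even; the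
element `A ^ 2` of order `r` is nontrivial on one of them: `PrimeTor`.
`c = -1`: `y := A ^ 4` has order `r`; if it fixes a nonzero vector, `GDecomp` for `y` and
`GTorBound` on the second block; otherwise `GTorBound` for `A` with `K = 4 * r`.
-/

namespace Cfsg.Agent.Lib.Helper1.PGCNEC4

open Matrix Polynomial
open Cfsg.Agent.Lib.Helper44.QSpace Cfsg.Agent.Lib.Helper44.OGroup Cfsg.Agent.Lib.Helper44.OMat
open Cfsg.Agent.Lib.Helper44.OExt Cfsg.Agent.Lib.Helper40.RecipPoly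
open Cfsg.Agent.Lib.Helper44.PGStmt

universe u

theorem neg_of_sq {F : Type u} [Field F] {κ : Type} [Fintype κ] [DecidableEq κ]
    (T : Matrix κ κ F) (hT : T ^ 2 = 1) (hfix : ∀ v : κ → F, T *ᵥ v = v → v = 0) (v : κ → F) :
    T *ᵥ v = -v := by
  have h1 : T *ᵥ (v + T *ᵥ v) = v + T *ᵥ v := by
    rw [Matrix.mulVec_add, Matrix.mulVec_mulVec, ← pow_two, hT, Matrix.one_mulVec, add_comm]
  have h2 := hfix _ h1
  exact eq_neg_of_add_eq_zero_right h2

theorem card_eq {F : Type u} [Field F] {ι : Type} [Fintype ι] {k₁ k₂ : ℕ}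
    (J : (Fin k₁ ⊕ Fin k₂ → F) ≃ₗ[F] (ι → F)) : k₁ + k₂ = Fintype.card ι := by
  have h3 := J.finrank_eq
  rw [Module.finrank_fintype_fun_eq_card, Module.finrank_fintype_fun_eq_card, Fintype.card_sum,
    Fintype.card_fin, Fintype.card_fin] at h3
  exact h3

theorem eq_one_of_snd_zero {F : Type u} [Field F] {ι : Type} [Fintype ι] [DecidableEq ι]
    {k₁ : ℕ} (T₂ : Matrix (Fin 0) (Fin 0) F) (J : (Fin k₁ ⊕ Fin 0 → F) ≃ₗ[F] (ι → F))
    (D : Matrix ι ι F)
    (h : ∀ u : Fin k₁ ⊕ Fin 0 → F,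
      D *ᵥ (J u) = J (Sum.elim (u ∘ Sum.inl) (T₂ *ᵥ (u ∘ Sum.inr)))) : D = 1 := by
  apply matrix_ext_mulVec
  intro x
  obtain ⟨y, rfl⟩ := J.surjective x
  rw [h, Matrix.one_mulVec]
  congr 1
  funext i
  rcases i with i | i
  · rfl
  · exact i.elim0

theorem main (hGD : GDecomp.{u}) (hBD : Cfsg.Agent.Lib.Helper44.BCStmt.BlockDiag.{u})
    (hBF : Cfsg.Agent.Lib.Helper44.BCStmt.BlockFacts.{u}) (hGBF : GBlockFacts.{u})
    (hAE : AltEven.{u}) (hPT : PrimeTor.{u}) (hTB : GTorBound.{u}) : CNecIV.{u} := by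
  intro F _ _ p _ _ hp2 n hn r hr hr2 hrp hHas
  classical
  have hp : p.Prime := Fact.out
  have h2 : (2 : F) ≠ 0 := by
    intro h0
    have h0' : ((2 : ℕ) : F) = 0 := by exact_mod_cast h0
    rw [CharP.cast_eq_zero_iff F p] at h0'
    exact hp2 ((Nat.prime_dvd_prime_iff_eq hp Nat.prime_two).1 h0')
  have h2' : ((2 : ℕ) : F) ≠ 0 := by exact_mod_cast h2
  have hrF : ((r : ℕ) : F) ≠ 0 := by
    intro h0
    rw [CharP.cast_eq_zero_iff F p] at h0
    exact hrp ((Nat.prime_dvd_prime_iff_eq hp hr).1 h0).symm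
  have hr3 : 3 ≤ r := by have := hr.two_le; omega
  have hrodd : Odd r := hr.odd_of_ne_two hr2
  have hn1 : 1 ≤ n := by omega
  obtain ⟨g, hg⟩ := hHas
  obtain ⟨A0, hA0⟩ := Cfsg.Agent.Lib.Helper43.SpBasic.pr_surjective g
  obtain ⟨A, hA⟩ : ∃ A : Matrix (Fin n ⊕ Fin n) (Fin n ⊕ Fin n) F,
      A = (A0 : Matrix (Fin n ⊕ Fin n) (Fin n ⊕ Fin n) F) := ⟨_, rfl⟩
  have hiff : ∀ j : ℕ, (2 * r ∣ j) ↔ ∃ c : F, c * c = 1 ∧ A ^ j = c • 1 := by
    intro j
    rw [hA, ← Cfsg.Agent.Lib.Helper42.SpOrdD.pr_pow_eq_one_iff hn1 A0 j, hA0, ← hg]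
    exact orderOf_dvd_iff_pow_eq_one
  obtain ⟨G, hGdef⟩ : ∃ G : Matrix (Fin n ⊕ Fin n) (Fin n ⊕ Fin n) F,
      G = Matrix.J (Fin n) F := ⟨_, rfl⟩
  have hGdet : G.det ≠ 0 := by rw [hGdef]; exact (Matrix.isUnit_det_J (Fin n) F).ne_zero
  have hGt : Gᵀ = -G := by rw [hGdef]; exact Matrix.J_transpose (Fin n) F
  have hAG : Aᵀ * G * A = G := by
    rw [hA, hGdef]; exact SymplecticGroup.mem_iff'.1 A0.2
  have hpowG : ∀ k : ℕ, (A ^ k)ᵀ * G * (A ^ k) = G := by
    intro k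
    induction k with
    | zero => simp
    | succ k ih =>
      calc (A ^ (k + 1))ᵀ * G * (A ^ (k + 1)) = Aᵀ * ((A ^ k)ᵀ * G * A ^ k) * A := by
            rw [pow_succ, Matrix.transpose_mul]; simp only [Matrix.mul_assoc]
        _ = G := by rw [ih, hAG]
  have hcard : Fintype.card (Fin n ⊕ Fin n) = 2 * n := by
    rw [Fintype.card_sum, Fintype.card_fin]; ring
  obtain ⟨c, hcc, hc⟩ := (hiff (2 * r)).1 dvd_rfl
  have hA2 : ∀ c' : F, c' * c' = 1 → A ^ 2 ≠ c' • 1 := by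
    intro c' hc' h
    have h1 := (hiff 2).2 ⟨c', hc', h⟩
    have h3 := Nat.le_of_dvd (by norm_num) h1
    omega
  have hAr : ∀ c' : F, c' * c' = 1 → A ^ r ≠ c' • 1 := by
    intro c' hc' h
    have h1 := (hiff r).2 ⟨c', hc', h⟩
    have h3 := Nat.le_of_dvd hr.pos h1
    omega
  have hc1 : c = 1 ∨ c = -1 := by
    have h3 : (c - 1) * (c + 1) = 0 := by linear_combination hcc
    rcases mul_eq_zero.mp h3 with h4 | h4
    · left; exact sub_eq_zero.mp h4
    · right; exact eq_neg_of_add_eq_zero_left h4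
  rcases hc1 with rfl | rfl
  · -- `A ^ (2r) = 1`
    rw [one_smul] at hc
    obtain ⟨t, ht⟩ : ∃ t : Matrix (Fin n ⊕ Fin n) (Fin n ⊕ Fin n) F, t = A ^ r := ⟨_, rfl⟩
    obtain ⟨y, hy⟩ : ∃ y : Matrix (Fin n ⊕ Fin n) (Fin n ⊕ Fin n) F, y = A ^ 2 := ⟨_, rfl⟩
    have ht2 : t ^ 2 = 1 := by rw [ht, ← pow_mul, mul_comm, hc]
    have hyr : y ^ r = 1 := by rw [hy, ← pow_mul, hc]
    have hy1 : y ≠ 1 := by
      rw [hy]; intro h; exact hA2 1 (by ring) (by rw [h, one_smul])
    have ht1 : t ≠ 1 := by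
      rw [ht]; intro h; exact hAr 1 (by ring) (by rw [h, one_smul])
    have htm1 : t ≠ -1 := by
      rw [ht]; intro h; exact hAr (-1) (by ring) (by rw [h, neg_smul, one_smul])
    have htG : tᵀ * G * t = G := by rw [ht]; exact hpowG r
    have hyG : yᵀ * G * y = G := by rw [hy]; exact hpowG 2
    have hyt : y * t = t * y := by rw [hy, ht]; exact (Commute.pow_pow_self A _ _).eq
    obtain ⟨k₁, k₂, G₁, G₂, T₂, J, hG₁, hG₂, hT₂G, hT₂2, hT₂fix, hform, htJ, hskew, -⟩ :=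
      hGD F (Fin n ⊕ Fin n) G t 2 hGdet htG (by norm_num) h2' ht2
    obtain ⟨hG₁t, hG₂t⟩ := hskew hGt
    have hk : k₁ + k₂ = 2 * n := by rw [card_eq J, hcard]
    have hk₂pos : 0 < k₂ := by
      rcases Nat.eq_zero_or_pos k₂ with h0 | h0
      · exfalso
        subst h0
        exact ht1 (eq_one_of_snd_zero T₂ J t htJ)
      · exact h0
    have hk₁pos : 0 < k₁ := by
      rcases Nat.eq_zero_or_pos k₁ with h0 | h0
      · exfalso
        subst h0
        apply htm1
        apply matrix_ext_mulVec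
        intro x
        obtain ⟨u, rfl⟩ := J.surjective x
        rw [htJ, Matrix.neg_mulVec, Matrix.one_mulVec, ← map_neg]
        congr 1
        funext i
        rcases i with i | i
        · exact i.elim0
        · have h3 := neg_of_sq T₂ hT₂2 hT₂fix (u ∘ Sum.inr)
          simp [h3]
      · exact h0
    have hk₁e : Even k₁ := by
      have h3 := hAE F (Fin k₁) G₁ h2 hG₁t hG₁
      rwa [Fintype.card_fin] at h3
    have hk₂e : Even k₂ := by
      have h3 := hAE F (Fin k₂) G₂ h2 hG₂t hG₂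
      rwa [Fintype.card_fin] at h3
    obtain ⟨y₁, y₂, hyJ, -⟩ := hBD F (Fin n ⊕ Fin n) t y k₁ k₂ T₂ J hT₂fix htJ hyt
    obtain ⟨hyp, -, -⟩ := hBF F (Fin n ⊕ Fin n) k₁ k₂ J y y₁ y₂ hyJ
    obtain ⟨hy₁G, hy₂G⟩ := hGBF F (Fin n ⊕ Fin n) k₁ k₂ J G y G₁ y₁ G₂ y₂ hform hyJ hyG
    obtain ⟨hy₁r, hy₂r⟩ := (hyp r).1 hyr
    have hne : y₁ ≠ 1 ∨ y₂ ≠ 1 := by
      by_contra hcon
      push Not at hcon
      apply hy1
      have h3 := (hyp 1).2 ⟨by rw [hcon.1, one_pow], by rw [hcon.2, one_pow]⟩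
      rwa [pow_one] at h3
    left
    rcases hne with h1 | h1
    · obtain ⟨k, hk1, hk2, hk3⟩ := hPT F p (Fin k₁) G₁ y₁ r hG₁ hy₁G hr hr2 hrp hy₁r h1
      rw [Fintype.card_fin] at hk2
      obtain ⟨a, ha⟩ := hk₂e
      exact ⟨k, hk1, by omega, hk3⟩
    · obtain ⟨k, hk1, hk2, hk3⟩ := hPT F p (Fin k₂) G₂ y₂ r hG₂ hy₂G hr hr2 hrp hy₂r h1
      rw [Fintype.card_fin] at hk2
      obtain ⟨a, ha⟩ := hk₁e
      exact ⟨k, hk1, by omega, hk3⟩
  · -- `A ^ (2r) = -1`
    have hc' : A ^ (2 * r) = -1 := by rw [hc, neg_smul, one_smul]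
    obtain ⟨y, hy⟩ : ∃ y : Matrix (Fin n ⊕ Fin n) (Fin n ⊕ Fin n) F, y = A ^ 4 := ⟨_, rfl⟩
    have hA4r : A ^ (4 * r) = 1 := by
      have h3 : 4 * r = 2 * r * 2 := by ring
      rw [h3, pow_mul, hc']
      simp
    have hyr : y ^ r = 1 := by rw [hy, ← pow_mul, hA4r]
    have hy1 : y ≠ 1 := by
      rw [hy]; intro h
      obtain ⟨m, hm⟩ := hrodd
      have h3 : A ^ (2 * r) = A ^ 2 := by
        have h4 : 2 * r = 4 * m + 2 := by omega
        rw [h4, pow_add, pow_mul, h, one_pow, one_mul]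
      rw [hc'] at h3
      exact hA2 (-1) (by ring) (by rw [← h3, neg_smul, one_smul])
    have hyG : yᵀ * G * y = G := by rw [hy]; exact hpowG 4
    by_cases hfix : ∃ v : Fin n ⊕ Fin n → F, v ≠ 0 ∧ y *ᵥ v = v
    · obtain ⟨v, hv0, hv⟩ := hfix
      obtain ⟨k₁, k₂, G₁, G₂, T₂, J, hG₁, hG₂, hT₂G, hT₂r, hT₂fix, hform, hyJ, hskew, -⟩ :=
        hGD F (Fin n ⊕ Fin n) G y r hGdet hyG hr.pos hrF hyr
      obtain ⟨hG₁t, hG₂t⟩ := hskew hGt
      have hk : k₁ + k₂ = 2 * n := by rw [card_eq J, hcard]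
      have hk₂pos : 0 < k₂ := by
        rcases Nat.eq_zero_or_pos k₂ with h0 | h0
        · exfalso
          subst h0
          exact hy1 (eq_one_of_snd_zero T₂ J y hyJ)
        · exact h0
      have hk₁pos : 0 < k₁ := by
        rcases Nat.eq_zero_or_pos k₁ with h0 | h0
        · exfalso
          subst h0
          obtain ⟨u, rfl⟩ := J.surjective v
          rw [hyJ] at hv
          have h3 := J.injective hv
          have h4 : T₂ *ᵥ (u ∘ Sum.inr) = u ∘ Sum.inr := by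
            funext i
            have h5 := congrFun h3 (Sum.inr i)
            simpa using h5
          have h5 := hT₂fix _ h4
          apply hv0
          have hu : u = 0 := by
            funext i
            rcases i with i | i
            · exact i.elim0
            · exact congrFun h5 i
          rw [hu, map_zero]
        · exact h0
      have hk₁e : Even k₁ := by
        have h3 := hAE F (Fin k₁) G₁ h2 hG₁t hG₁
        rwa [Fintype.card_fin] at h3
      obtain ⟨k, hk1, hk2, hk3⟩ := hTB F (Fin k₂) G₂ T₂ r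
        (by rw [Fintype.card_fin]; exact hk₂pos) hG₂ hT₂G (by omega) hT₂r (by
          intro ℓ hℓ hℓr w hw
          have h3 : ℓ = r := (Nat.prime_dvd_prime_iff_eq hℓ hr).1 hℓr
          subst h3
          rw [Nat.div_self hℓ.pos, pow_one] at hw
          exact hT₂fix w hw)
      left
      rw [Fintype.card_fin] at hk2
      obtain ⟨a, ha⟩ := hk₁e
      exact ⟨k, hk1, by omega, hk3⟩
    · push Not at hfix
      obtain ⟨k, hk1, hk2, hk3⟩ := hTB F (Fin n ⊕ Fin n) G A (4 * r)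
        (by rw [hcard]; omega) hGdet hAG (by omega) hA4r (by
          intro ℓ hℓ hℓr v hv
          have hcases : ℓ = 2 ∨ ℓ = r := by
            rcases (Nat.Prime.dvd_mul hℓ).1 hℓr with h | h
            · left
              have h4 : ℓ ∣ 2 ^ 2 := by norm_num; exact h
              exact (Nat.prime_dvd_prime_iff_eq hℓ Nat.prime_two).1 (hℓ.dvd_of_dvd_pow h4)
            · right; exact (Nat.prime_dvd_prime_iff_eq hℓ hr).1 h
          rcases hcases with rfl | rfl
          · have h5 : 4 * r / 2 = 2 * r := by omega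
            rw [h5, hc', Matrix.neg_mulVec, Matrix.one_mulVec] at hv
            funext i
            have h6 := congrFun hv i
            simp only [Pi.neg_apply, Pi.zero_apply] at h6 ⊢
            have h7 : (2 : F) * v i = 0 := by linear_combination -h6
            exact (mul_eq_zero.1 h7).resolve_left h2
          · have h5 : 4 * ℓ / ℓ = 4 := Nat.mul_div_cancel 4 hℓ.pos
            rw [h5, ← hy] at hv
            by_contra hv0
            exact hfix v hv0 hv)
      rw [hcard] at hk2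
      rcases Nat.lt_or_ge k n with hlt | hge
      · left
        refine ⟨k, hk1, by omega, ?_⟩
        rcases hk3 with h | h
        · left; exact (Dvd.intro_left 4 rfl).trans h
        · right; exact (Dvd.intro_left 4 rfl).trans h
      · right
        have hkn : k = n := by omega
        rw [← hkn]; exact hk3

end Cfsg.Agent.Lib.Helper1.PGCNEC4
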