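import Mathlib
import Cfsg.Agent.Lib.CT.Orth
import Cfsg.Agent.Lib.Helper80.Integrality
import Cfsg.Agent.S0154

set_option autoImplicit false

/-!
# A `p`-group with more than `|P|/p` classes has `|P'| ≤ p`

`k(P) = |Irr(P)|`, `|P| = ∑ χ(1)²`, the number of linear characters is `|P : P'|`, and a nonlinear
irreducible character of a `p`-group has degree `≥ p`.  Hence
`|P| + p² |P:P'| ≥ p² k(P) + |P:P'|`, and `|P| < p k(P)` forces `|P'| < p + 1`.
-/

namespace Cfsg.Agent.Lib.Helper1.PGroupKP

open Cfsg Cfsg.Agent.Lib.CT.Orth Cfsg.Agent.Lib.CT.Wedderburn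

universe u

/-- General inequality (no hypothesis on the number of classes):
`p² k(P) + |P:P'| ≤ |P| + p² |P:P'|` for a finite `p`-group `P`. -/
theorem sq_mul_card_classes_le {P : Type u} [Group P] [Finite P] (p : ℕ) [hp : Fact p.Prime]
    (hP : IsPGroup p P) :
    p ^ 2 * Nat.card (ConjClasses P) + (commutator P).index
      ≤ Nat.card P + p ^ 2 * (commutator P).index := by
  classical
  have := Fintype.ofFinite P
  have := finite_irrCharacter P
  have := Fintype.ofFinite (IrrCharacter P)
  have hsum := sum_charDegree_sq_sum (G := P)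
  have hk : Fintype.card (IrrCharacter P) = Nat.card (ConjClasses P) := by
    rw [← Nat.card_eq_fintype_card]; exact card_irrCharacter
  have hlin : Nat.card {χ : IrrCharacter P // (χ : P → ℂ) 1 = 1} = (commutator P).index :=
    Cfsg.Agent.S0154.result
  have hdeg1 : ∀ χ : IrrCharacter P, ((χ : P → ℂ) 1 = 1 ↔ charDegree (χ : P → ℂ) = 1) := by
    intro χ
    have h := char_natCast_charDegree (isCharacter_of_irr χ.2)
    constructor
    · intro h1
      have : ((charDegree (χ : P → ℂ) : ℕ) : ℂ) = ((1 : ℕ) : ℂ) := by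
        rw [h, h1]; simp
      exact_mod_cast this
    · intro h1
      rw [← h, h1]; simp
  have hL : (Finset.univ.filter fun χ : IrrCharacter P => charDegree (χ : P → ℂ) = 1).card
      = (commutator P).index := by
    rw [← hlin, Nat.card_eq_fintype_card, Fintype.card_subtype]
    congr 1
    ext χ
    simp only [Finset.mem_filter, Finset.mem_univ, true_and]
    exact (hdeg1 χ).symm
  have hge : ∀ χ : IrrCharacter P, charDegree (χ : P → ℂ) ≠ 1 → p ≤ charDegree (χ : P → ℂ) := by
    intro χ hne
    have hdvd := Cfsg.Agent.Lib.Helper80.Integrality.charDegree_dvd_card χ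
    obtain ⟨n, hn⟩ := IsPGroup.iff_card.mp hP
    rw [hn] at hdvd
    obtain ⟨j, _, hj⟩ := (Nat.dvd_prime_pow hp.out).mp hdvd
    rw [hj] at hne ⊢
    have hj0 : j ≠ 0 := by
      rintro rfl; exact hne (pow_zero p)
    calc p = p ^ 1 := (pow_one p).symm
      _ ≤ p ^ j := Nat.pow_le_pow_right hp.out.pos (Nat.one_le_iff_ne_zero.mpr hj0)
  have key : ∑ χ : IrrCharacter P, (p ^ 2 + if charDegree (χ : P → ℂ) = 1 then 1 else 0)
      ≤ ∑ χ : IrrCharacter P,
        (charDegree (χ : P → ℂ) ^ 2 + if charDegree (χ : P → ℂ) = 1 then p ^ 2 else 0) := by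
    apply Finset.sum_le_sum
    intro χ _
    by_cases h1 : charDegree (χ : P → ℂ) = 1
    · simp only [h1, if_true]; omega
    · simp only [h1, if_false, add_zero]
      exact Nat.pow_le_pow_left (hge χ h1) 2
  rw [Finset.sum_add_distrib, Finset.sum_add_distrib, hsum, Finset.sum_const, Finset.card_univ, hk,
    smul_eq_mul, ← Finset.sum_filter, ← Finset.sum_filter, Finset.sum_const, Finset.sum_const, hL,
    smul_eq_mul, smul_eq_mul, mul_one] at key
  linarith [key, mul_comm (Nat.card (ConjClasses P)) (p ^ 2),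
    mul_comm ((commutator P).index) (p ^ 2)]

/-- **The `p`-group lemma.** A finite `p`-group with more than `|P|/p` conjugacy classes has
commutator subgroup of order at most `p`. -/
theorem card_commutator_le_of_lt {P : Type u} [Group P] [Finite P] (p : ℕ) [hp : Fact p.Prime]
    (hP : IsPGroup p P) (h : Nat.card P < p * Nat.card (ConjClasses P)) :
    Nat.card (commutator P) ≤ p := by
  have h1 := sq_mul_card_classes_le p hP
  have h2 : (commutator P).index * Nat.card (commutator P) = Nat.card P :=
    (commutator P).index_mul_card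
  have hLpos : 0 < (commutator P).index := Nat.pos_of_ne_zero Subgroup.index_ne_zero_of_finite
  have hp2 : 2 ≤ p := hp.out.two_le
  by_contra hcon
  push Not at hcon
  -- `c ≥ p + 1`
  set L := (commutator P).index
  set c := Nat.card (commutator P)
  set k := Nat.card (ConjClasses P)
  set n := Nat.card P
  have h3 : L * (p + 1) ≤ n := by
    rw [← h2]; exact Nat.mul_le_mul_left L hcon
  -- p^2 k + L ≤ n + p^2 L,  n < p k  ⇒  p n < p^2 k ≤ n + (p^2 - 1) L
  have h4 : p * n < p * (p * k) := Nat.mul_lt_mul_of_pos_left h hp.out.pos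
  nlinarith [h1, h3, h4, hLpos, hp2, Nat.mul_le_mul_left (p - 1) h3, Nat.sub_add_cancel (le_of_lt hp2)]

/-- Subgroup form. -/
theorem card_commutator_le_of_lt_subgroup {G : Type u} [Group G] [Finite G] (p : ℕ)
    [hp : Fact p.Prime] (P : Subgroup G) (hP : IsPGroup p P)
    (h : Nat.card P < p * Nat.card (ConjClasses P)) :
    Nat.card (commutator P) ≤ p :=
  card_commutator_le_of_lt p hP h

end Cfsg.Agent.Lib.Helper1.PGroupKP
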