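import Mathlib
import Cfsg.Agent.Lib.Helper1.PiClasses

set_option autoImplicit false

/-!
# Classes of π-elements, part 2: bridges for statements with `π : Set ℕ` and an abstract `m`

* `card_stmt_eq_kpi`: the class count written with `∃ g, ConjClasses.mk g = C ∧ q ∣ orderOf g`
  is `kpi π G`.
* `tauOf π n`: the finite set of primes of `π` dividing `n`; `kpi_eq_kpi_tauOf`.
* `eq_piPart_tauOf`: `m ∣ n`, all prime divisors of `m` in `π`, no prime of `π` divides `n / m`
  imply `m = piPart (tauOf π n) n`.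
* `kpi_prime_le_classes`: `kpi {r} G ≤ k(P)` for a Sylow `r`-subgroup `P`.
-/

namespace Cfsg.Agent.Lib.Helper1.PiClasses2

open Cfsg.Agent.Lib.Helper1.PiClasses

universe u

variable {G : Type u} [Group G]

/-- The class count of the statements S4104/S4105 is `kpi π G`. -/
theorem card_stmt_eq_kpi (π : Set ℕ) :
    Nat.card {C : ConjClasses G // ∀ q : ℕ, q.Prime →
      (∃ g : G, ConjClasses.mk g = C ∧ q ∣ orderOf g) → q ∈ π} = kpi π G := by
  unfold kpi PiCls
  refine Nat.card_congr (Equiv.subtypeEquivRight ?_)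
  intro C
  constructor
  · intro h x hx r hr hrx
    exact h r hr ⟨x, ConjClasses.mem_carrier_iff_mk_eq.mp hx, hrx⟩
  · rintro h q hq ⟨g, hg, hqg⟩
    exact h g (ConjClasses.mem_carrier_iff_mk_eq.mpr hg) q hq hqg

open Classical in
/-- the finite set of primes of `π` dividing `n` -/
noncomputable def tauOf (π : Set ℕ) (n : ℕ) : Finset ℕ := n.primeFactors.filter (· ∈ π)

theorem mem_tauOf {π : Set ℕ} {n : ℕ} (hn : n ≠ 0) {q : ℕ} :
    q ∈ tauOf π n ↔ q.Prime ∧ q ∣ n ∧ q ∈ π := by
  classical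
  unfold tauOf
  rw [Finset.mem_filter, Nat.mem_primeFactors]
  tauto

theorem prime_of_mem_tauOf {π : Set ℕ} {n : ℕ} {q : ℕ} (h : q ∈ tauOf π n) : q.Prime := by
  classical
  unfold tauOf at h
  exact Nat.prime_of_mem_primeFactors (Finset.mem_filter.mp h).1

theorem mem_pi_of_mem_tauOf {π : Set ℕ} {n : ℕ} {q : ℕ} (h : q ∈ tauOf π n) : q ∈ π := by
  classical
  unfold tauOf at h
  exact (Finset.mem_filter.mp h).2

theorem dvd_of_mem_tauOf {π : Set ℕ} {n : ℕ} {q : ℕ} (h : q ∈ tauOf π n) : q ∣ n := by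
  classical
  unfold tauOf at h
  exact Nat.dvd_of_mem_primeFactors (Finset.mem_filter.mp h).1

theorem isPiElt_tauOf_iff [Finite G] (π : Set ℕ) (x : G) :
    IsPiElt (↑(tauOf π (Nat.card G)) : Set ℕ) x ↔ IsPiElt π x := by
  constructor
  · intro h r hr hrx
    exact mem_pi_of_mem_tauOf (Finset.mem_coe.mp (h r hr hrx))
  · intro h r hr hrx
    rw [Finset.mem_coe, mem_tauOf Nat.card_pos.ne']
    exact ⟨hr, hrx.trans (orderOf_dvd_natCard x), h r hr hrx⟩

/-- only the primes dividing `|G|` matter -/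
theorem kpi_eq_kpi_tauOf [Finite G] (π : Set ℕ) :
    kpi π G = kpi (↑(tauOf π (Nat.card G)) : Set ℕ) G := by
  unfold kpi PiCls
  refine Nat.card_congr (Equiv.subtypeEquivRight ?_)
  intro C
  constructor
  · intro h x hx
    exact (isPiElt_tauOf_iff π x).mpr (h x hx)
  · intro h x hx
    exact (isPiElt_tauOf_iff π x).mp (h x hx)

/-- the abstract `m` of the statements is the `π`-part of `n` -/
theorem eq_piPart_tauOf (π : Set ℕ) {m n : ℕ} (hn : n ≠ 0) (hm : m ∣ n)
    (hmπ : ∀ q : ℕ, q.Prime → q ∣ m → q ∈ π) (hm' : ∀ q ∈ π, ¬ q ∣ n / m) :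
    m = piPart (tauOf π n) n := by
  have hm0 : m ≠ 0 := by
    rintro rfl
    exact hn (Nat.eq_zero_of_zero_dvd hm)
  have hnm : n = m * (n / m) := (Nat.mul_div_cancel' hm).symm
  have hq0 : n / m ≠ 0 := by
    intro h0
    rw [h0, mul_zero] at hnm
    exact hn hnm
  have hsupp : m.primeFactors = tauOf π n := by
    ext q
    rw [mem_tauOf hn, Nat.mem_primeFactors]
    constructor
    · rintro ⟨hq, hqm, _⟩
      exact ⟨hq, hqm.trans hm, hmπ q hq hqm⟩
    · rintro ⟨hq, hqn, hqπ⟩
      refine ⟨hq, ?_, hm0⟩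
      rw [hnm] at hqn
      rcases (Nat.Prime.dvd_mul hq).mp hqn with h | h
      · exact h
      · exact absurd h (hm' q hqπ)
  have hval : ∀ q ∈ tauOf π n, n.factorization q = m.factorization q := by
    intro q hq
    have hqπ := mem_pi_of_mem_tauOf hq
    conv_lhs => rw [hnm]
    rw [Nat.factorization_mul hm0 hq0, Finsupp.add_apply,
      Nat.factorization_eq_zero_of_not_dvd (hm' q hqπ), add_zero]
  have h1 : m = m.primeFactors.prod (fun q => q ^ m.factorization q) := by
    conv_lhs => rw [← Nat.prod_factorization_pow_eq_self hm0]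
    rfl
  unfold piPart
  rw [h1, hsupp]
  refine Finset.prod_congr rfl ?_
  intro q hq
  rw [hval q hq]

/-- classes of `r`-elements of `G` are covered by classes of a Sylow `r`-subgroup -/
theorem kpi_prime_le_classes [Finite G] {r : ℕ} [Fact r.Prime] (P : Sylow r G) :
    kpi {r} G ≤ Nat.card (ConjClasses (P : Subgroup G)) := by
  classical
  have hex := fun c : PiCls ({r} : Set ℕ) G => exists_mem_sylow P c
  choose x hx hxc using hex
  refine Nat.card_le_card_of_injective (fun c => ConjClasses.mk (x c)) ?_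
  intro c d hcd
  have h1 : IsConj (x c) (x d) := ConjClasses.mk_eq_mk_iff_isConj.mp hcd
  obtain ⟨g, hg⟩ := isConj_iff.mp h1
  rw [← hxc c, ← hxc d, mkPi_eq_iff]
  exact ⟨(g : G), by rw [← hg]; rfl⟩

end Cfsg.Agent.Lib.Helper1.PiClasses2
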