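import Mathlib
import Cfsg.Agent.Lib.Helper81.RMStmt
import Cfsg.Agent.Lib.Helper15.LinExt

/-!
# S4581 piece EXT: an invariant `τ : U →* ℤˣ` which extends to a Sylow `2`-subgroup `P ≤ H`
extends to `H` (transfer from `P` to `H`, index odd).
-/

set_option autoImplicit false

open Cfsg Cfsg.Agent.Lib.Helper81.RMStmt

namespace Cfsg.Agent.Lib.Helper1.RMEXT

universe u

theorem main : EXT.{u} := by
  intro G _ _ U hU P H hUH hPH hUP τ hinv ⟨ν, hν⟩
  have hp2 : Fact (Nat.Prime 2) := ⟨Nat.prime_two⟩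
  let PH : Subgroup ↥H := (P : Subgroup G).subgroupOf H
  let UH : Subgroup ↥H := U.subgroupOf H
  have hUHn : UH.Normal := hU.subgroupOf H
  have hUP' : UH ≤ PH := fun x hx => hUP hx
  let e : ↥PH ≃* ↥(P : Subgroup G) := Subgroup.subgroupOfEquivOfLe hPH
  let ϕ : ↥PH →* ℤˣ := ν.comp e.toMonoidHom
  have hodd : Odd PH.index := by
    have h2 : (P : Subgroup G).relIndex H * H.index = (P : Subgroup G).index :=
      Subgroup.relIndex_mul_index hPH
    have h3 : ¬ 2 ∣ (P : Subgroup G).index := P.not_dvd_index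
    have h4 : ¬ 2 ∣ (P : Subgroup G).relIndex H := fun h => h3 (h2 ▸ Dvd.dvd.mul_right h _)
    rw [Nat.odd_iff]
    have : PH.index = (P : Subgroup G).relIndex H := rfl
    omega
  refine ⟨MonoidHom.transfer ϕ, fun u => ?_⟩
  have hmem : (Subgroup.inclusion hUH u : ↥H) ∈ UH := u.2
  have h := Cfsg.Agent.Lib.Helper15.LinExt.transfer_apply_of_mem_normal PH UH hUP' ϕ (by
      intro g n hn
      have hnU : (n : G) ∈ U := hn
      have h1 : ϕ ⟨n, hUP' hn⟩ = τ ⟨(n : G), hnU⟩ := by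
        rw [← hν ⟨(n : G), hnU⟩]; rfl
      have h2 : ϕ ⟨g * n * g⁻¹, hUP' (hUHn.conj_mem n hn g)⟩
          = τ ⟨(g : G) * (n : G) * (g : G)⁻¹, hU.conj_mem (n : G) hnU (g : G)⟩ := by
        rw [← hν ⟨(g : G) * (n : G) * (g : G)⁻¹, hU.conj_mem (n : G) hnU (g : G)⟩]; rfl
      rw [h1, h2]
      exact hinv (g : G) g.2 ⟨(n : G), hnU⟩) (Subgroup.inclusion hUH u) hmem
  rw [h]
  have h1 : ϕ ⟨Subgroup.inclusion hUH u, hUP' hmem⟩ = τ u := by
    rw [← hν u]; rfl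
  rw [h1]
  obtain ⟨k, hk⟩ := hodd
  rw [hk, pow_succ, pow_mul, Int.units_sq, one_pow, one_mul]

end Cfsg.Agent.Lib.Helper1.RMEXT
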