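import Mathlib
import Cfsg.Agent.Lib.Helper81.RMStmt
import Cfsg.Agent.Lib.Helper80.Integrality
import Cfsg.Agent.Lib.CT.LinChar
import Cfsg.Agent.Lib.CT.Ops
import Cfsg.Agent.Lib.Helper63.PFrattini

/-!
# S4581 piece NSYLB: if `P' = Φ(P)` and `N_G(P) = P` for a Sylow `2`-subgroup `P`, then every
odd-degree irreducible character of `N_G(P)` is real-valued (it is linear with values `±1`).
-/

set_option autoImplicit false

open Cfsg Cfsg.Agent.Lib.Helper81.RMStmt

namespace Cfsg.Agent.Lib.Helper1.RMNSYLB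

universe u

theorem main : NSYLB.{u} := by
  intro G _ _ P hcf hN ψ hodd g
  have hp2 : Fact (Nat.Prime 2) := ⟨Nat.prime_two⟩
  have hNp : IsPGroup 2 ↥(Subgroup.normalizer ((P : Subgroup G) : Set G)) :=
    hN.symm ▸ P.isPGroup'
  have hd : charDegree (ψ : ↥(Subgroup.normalizer ((P : Subgroup G) : Set G)) → ℂ) = 1 := by
    have h1 := Cfsg.Agent.Lib.Helper80.Integrality.charDegree_dvd_card ψ
    obtain ⟨k, hk⟩ := (IsPGroup.iff_card).1 hNp
    rw [hk] at h1
    exact Nat.Coprime.eq_one_of_dvd (Nat.Coprime.pow_right k (Nat.coprime_two_right.mpr hodd)) h1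
  have hchar : IsCharacter ↥(Subgroup.normalizer ((P : Subgroup G) : Set G))
      (ψ : ↥(Subgroup.normalizer ((P : Subgroup G) : Set G)) → ℂ) :=
    Cfsg.Agent.Lib.CT.Ops.IsIrrCharacter.isCharacter ψ.2
  have h1 : (ψ : ↥(Subgroup.normalizer ((P : Subgroup G) : Set G)) → ℂ) 1 = 1 := by
    rw [Cfsg.Agent.Lib.Helper80.Integrality.apply_one_eq_charDegree hchar, hd]; simp
  obtain ⟨f, hf⟩ := Cfsg.Agent.Lib.CT.LinChar.exists_hom_of_isCharacter _ hchar h1
  have hgP : (g : G) ∈ (P : Subgroup G) := hN.le g.2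
  let ι : ↥(P : Subgroup G) →* ↥(Subgroup.normalizer ((P : Subgroup G) : Set G)) :=
    Subgroup.inclusion Subgroup.le_normalizer
  have hker : commutator ↥(P : Subgroup G) ≤ (f.comp ι).ker :=
    Abelianization.commutator_subset_ker (f.comp ι)
  have hsq : (⟨(g : G), hgP⟩ : ↥(P : Subgroup G)) ^ 2 ∈ frattini ↥(P : Subgroup G) :=
    Cfsg.Agent.Lib.Helper63.PFrattini.pow_mem_frattini P.isPGroup' _
  rw [← hcf] at hsq
  have h2 : (f.comp ι) ((⟨(g : G), hgP⟩ : ↥(P : Subgroup G)) ^ 2) = 1 := hker hsq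
  have h3 : ι ⟨(g : G), hgP⟩ = g := Subtype.ext rfl
  rw [map_pow, MonoidHom.comp_apply, h3] at h2
  rw [hf g]
  have h4 : ((f g : ℂˣ) : ℂ) * ((f g : ℂˣ) : ℂ) = 1 := by
    have := congrArg (fun z : ℂˣ => (z : ℂ)) h2
    simpa [pow_two] using this
  rcases mul_self_eq_one_iff.1 h4 with h | h
  · rw [h]; simp
  · rw [h]; simp

end Cfsg.Agent.Lib.Helper1.RMNSYLB
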