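import Mathlib
import Cfsg.Agent.Lib.Helper7.ReeSolvStmt

/-!
# S2361 piece TWOFOUR: `F` of order 4 normal in `L` with `C_L(F) ≤ F` (2-elements of `G` being
involutions): `x³ ∈ F` for all `x ∈ L`, so `L` acts on the Sylow 2-subgroups containing `F`
through a 3-group and fixes one of them.
-/

set_option autoImplicit false
set_option linter.style.haveILetI false

namespace Cfsg.Agent.Lib.Helper1.RSTWOFOUR

universe u

open Cfsg.Agent.Lib.Helper7.ReeSolvStmt
open scoped Pointwise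

/-- conjugation by `x` (normalizing `F`) on the nonidentity elements of `F` -/
def conjPerm {G : Type u} [Group G] (F : Subgroup G) (x : G)
    (hx : ∀ f ∈ F, x * f * x⁻¹ ∈ F) (hx' : ∀ f ∈ F, x⁻¹ * f * x ∈ F) :
    Equiv.Perm {f : ↥F // f ≠ 1} where
  toFun t := ⟨⟨x * t.1.1 * x⁻¹, hx _ t.1.2⟩, by
    intro h
    apply t.2
    have h1 : x * t.1.1 * x⁻¹ = 1 := congrArg Subtype.val h
    apply Subtype.ext
    have : t.1.1 = x⁻¹ * (x * t.1.1 * x⁻¹) * x := by group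
    rw [this, h1]; simp⟩
  invFun t := ⟨⟨x⁻¹ * t.1.1 * x, hx' _ t.1.2⟩, by
    intro h
    apply t.2
    have h1 : x⁻¹ * t.1.1 * x = 1 := congrArg Subtype.val h
    apply Subtype.ext
    have : t.1.1 = x * (x⁻¹ * t.1.1 * x) * x⁻¹ := by group
    rw [this, h1]; simp⟩
  left_inv t := by
    apply Subtype.ext; apply Subtype.ext
    show x⁻¹ * (x * t.1.1 * x⁻¹) * x = t.1.1
    group
  right_inv t := by
    apply Subtype.ext; apply Subtype.ext
    show x * (x⁻¹ * t.1.1 * x) * x⁻¹ = t.1.1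
    group

theorem conjPerm_pow {G : Type u} [Group G] (F : Subgroup G) (x : G)
    (hx : ∀ f ∈ F, x * f * x⁻¹ ∈ F) (hx' : ∀ f ∈ F, x⁻¹ * f * x ∈ F) (n : ℕ)
    (t : {f : ↥F // f ≠ 1}) :
    (((conjPerm F x hx hx') ^ n) t).1.1 = x ^ n * t.1.1 * (x ^ n)⁻¹ := by
  induction n with
  | zero => simp
  | succ n ih =>
    rw [pow_succ', Equiv.Perm.mul_apply]
    show x * (((conjPerm F x hx hx') ^ n) t).1.1 * x⁻¹ = _
    rw [ih, pow_succ']
    group

theorem main : Cfsg.Agent.Lib.Helper7.ReeSolvStmt.TwoFour.{u} := by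
  classical
  intro G _ _ hExp L F hFL hLN hF4 hC hΩ
  letI : Fintype ↥F := Fintype.ofFinite _
  have hFsq : ∀ f ∈ F, f ^ 2 = 1 := by
    intro f hf
    apply hExp f
    refine ⟨2, ?_⟩
    have h1 : (⟨f, hf⟩ : ↥F) ^ Nat.card ↥F = 1 := pow_card_eq_one'
    rw [hF4] at h1
    have h2 : f ^ 4 = 1 := by
      have := congrArg Subtype.val h1
      simpa using this
    norm_num
    exact h2
  have hFinv : ∀ f ∈ F, f⁻¹ = f := by
    intro f hf
    have h := hFsq f hf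
    rw [sq] at h
    exact inv_eq_of_mul_eq_one_left h
  have hconj : ∀ x ∈ L, ∀ f ∈ F, x * f * x⁻¹ ∈ F := fun x hx f hf =>
    (Subgroup.mem_normalizer_iff.1 (hLN hx) f).1 hf
  have hconj' : ∀ x ∈ L, ∀ f ∈ F, x⁻¹ * f * x ∈ F := by
    intro x hx f hf
    have := hconj x⁻¹ (L.inv_mem hx) f hf
    rwa [inv_inv] at this
  -- the nonidentity elements of `F`
  have hT : Fintype.card {f : ↥F // f ≠ 1} = 3 := by
    have h1 := Fintype.card_subtype_compl (fun f : ↥F => f = 1)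
    have h2 : Fintype.card {f : ↥F // f = 1} = 1 := Fintype.card_subtype_eq (1 : ↥F)
    have h3 : Fintype.card ↥F = 4 := by rw [← Nat.card_eq_fintype_card]; exact hF4
    rw [h2, h3] at h1
    exact h1
  -- `x ^ 6` centralizes `F`
  have h6 : ∀ x ∈ L, ∀ f ∈ F, x ^ 6 * f = f * x ^ 6 := by
    intro x hx f hf
    by_cases hf1 : f = 1
    · rw [hf1]; simp
    · have hcard : Fintype.card (Equiv.Perm {f : ↥F // f ≠ 1}) = 6 := by
        rw [Fintype.card_perm, hT]; rfl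
      have hpow : (conjPerm F x (hconj x hx) (hconj' x hx)) ^ 6 = 1 := by
        rw [← hcard]; exact pow_card_eq_one
      have h1 := conjPerm_pow F x (hconj x hx) (hconj' x hx) 6
        ⟨⟨f, hf⟩, fun h => hf1 (congrArg Subtype.val h)⟩
      rw [hpow] at h1
      have h2 : f = x ^ 6 * f * (x ^ 6)⁻¹ := h1
      exact (mul_inv_eq_iff_eq_mul.1 h2.symm)
  -- `x ^ 3 ∈ F`
  have h3 : ∀ x ∈ L, x ^ 3 ∈ F := by
    intro x hx
    have hx6F : x ^ 6 ∈ F := hC (x ^ 6) (L.pow_mem hx 6) (h6 x hx)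
    have hy4 : (x ^ 3) ^ 2 ^ 2 = 1 := by
      have := hFsq _ hx6F
      rw [← pow_mul] at this ⊢
      norm_num at this ⊢
      exact this
    have hy2 : (x ^ 3) ^ 2 = 1 := hExp (x ^ 3) ⟨2, hy4⟩
    have hyL : x ^ 3 ∈ L := L.pow_mem hx 3
    apply hC _ hyL
    intro f hf
    generalize x ^ 3 = y at hy2 hyL
    have hyinv : y⁻¹ = y := by
      rw [sq] at hy2
      exact inv_eq_of_mul_eq_one_left hy2
    have hf' : y * f * y⁻¹ ∈ F := hconj y hyL f hf
    have e1 : (y * f) ^ 2 = (y * f * y⁻¹) * f := by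
      rw [hyinv, sq]; group
    have e2 : ((y * f) ^ 2) ^ 2 = 1 := by
      rw [e1]; exact hFsq _ (F.mul_mem hf' hf)
    have e3 : (y * f) ^ 2 ^ 2 = 1 := by
      rw [show (2 : ℕ) ^ 2 = 2 * 2 from rfl, pow_mul]; exact e2
    have e4 : (y * f) ^ 2 = 1 := hExp _ ⟨2, e3⟩
    rw [sq] at e4
    have e5 : y * f = (y * f)⁻¹ := eq_inv_of_mul_eq_one_left e4
    rw [e5, mul_inv_rev, hFinv f hf, hyinv]
  -- the action of `L` on the Sylow 2-subgroups containing `F`
  let Ω := {P : Sylow 2 G // F ≤ (P : Subgroup G)}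
  have hsm : ∀ x ∈ L, ∀ P : Ω, F ≤ ((x • P.1 : Sylow 2 G) : Subgroup G) := by
    intro x hx P f hf
    have h1 : x⁻¹ * f * x ∈ (P.1 : Subgroup G) := P.2 (hconj' x hx f hf)
    have h2 : MulAut.conj x • (x⁻¹ * f * x) ∈ MulAut.conj x • (P.1 : Subgroup G) :=
      Subgroup.smul_mem_pointwise_smul _ _ _ h1
    have h3 : MulAut.conj x • (x⁻¹ * f * x) = f := by
      rw [MulAut.smul_def, MulAut.conj_apply]; group
    rw [h3] at h2
    exact h2
  letI : MulAction ↥L Ω :=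
    { smul := fun x P => ⟨(x : G) • P.1, hsm x.1 x.2 P⟩
      one_smul := fun P => Subtype.ext (one_smul G P.1)
      mul_smul := fun x y P => Subtype.ext (mul_smul (x : G) (y : G) P.1) }
  have hsmul : ∀ (x : ↥L) (P : Ω), (x • P).1 = (x : G) • P.1 := fun _ _ => rfl
  let φ : ↥L →* Equiv.Perm Ω := MulAction.toPermHom ↥L Ω
  have hφ3 : ∀ x : ↥L, φ x ^ 3 = 1 := by
    intro x
    rw [← map_pow]
    apply Equiv.ext
    intro P
    show (x ^ 3) • P = P
    apply Subtype.ext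
    rw [hsmul]
    rw [Sylow.smul_eq_iff_mem_normalizer]
    apply Subgroup.le_normalizer
    apply P.2
    exact h3 x.1 x.2
  have hH : IsPGroup 3 ↥φ.range := by
    rintro ⟨h, x, rfl⟩
    refine ⟨1, ?_⟩
    apply Subtype.ext
    rw [pow_one]
    exact hφ3 x
  haveI : Fact (Nat.Prime 3) := ⟨Nat.prime_three⟩
  obtain ⟨P, hP⟩ := hH.nonempty_fixed_point_of_prime_not_dvd_card Ω hΩ
  refine ⟨P.1, ?_⟩
  intro x hx
  have h1 : (⟨φ ⟨x, hx⟩, ⟨⟨x, hx⟩, rfl⟩⟩ : ↥φ.range) • P = P := hP _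
  have h2 : (⟨x, hx⟩ : ↥L) • P = P := h1
  have h3' : x • P.1 = P.1 := by
    have := congrArg Subtype.val h2
    rwa [hsmul] at this
  exact Sylow.smul_eq_iff_mem_normalizer.1 h3'

end Cfsg.Agent.Lib.Helper1.RSTWOFOUR
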