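import Mathlib
import Cfsg.Agent.Lib.Helper7.ReeSolvStmt

/-!
# S2361 piece TWOSMALL: a normal subgroup of order `≤ 2` containing its centralizer is everything.
-/

set_option autoImplicit false

namespace Cfsg.Agent.Lib.Helper1.RSTWOSMALL

universe u

theorem main : Cfsg.Agent.Lib.Helper7.ReeSolvStmt.TwoSmall.{u} := by
  intro G _ _ L F hFL hLN hF2 hC
  apply le_antisymm _ hFL
  intro x hx
  apply hC x hx
  intro f hf
  have hconj : x * f * x⁻¹ ∈ F := (Subgroup.mem_normalizer_iff.1 (hLN hx) f).1 hf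
  by_contra hne
  have hne' : x * f * x⁻¹ ≠ f := by
    intro h
    apply hne
    exact mul_inv_eq_iff_eq_mul.1 h
  have hf1 : f ≠ 1 := by
    intro h
    apply hne
    rw [h]; simp
  have hc1 : x * f * x⁻¹ ≠ 1 := by
    intro h
    apply hf1
    have : f = x⁻¹ * (x * f * x⁻¹) * x := by group
    rw [this, h]; simp
  letI : Fintype ↥F := Fintype.ofFinite _
  have h3 : 2 < Fintype.card ↥F := by
    rw [Fintype.two_lt_card_iff]
    refine ⟨⟨1, F.one_mem⟩, ⟨f, hf⟩, ⟨x * f * x⁻¹, hconj⟩, ?_, ?_, ?_⟩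
    · intro h; exact hf1 (congrArg Subtype.val h).symm
    · intro h; exact hc1 (congrArg Subtype.val h).symm
    · intro h; exact hne' (congrArg Subtype.val h).symm
  rw [Nat.card_eq_fintype_card] at hF2
  omega

end Cfsg.Agent.Lib.Helper1.RSTWOSMALL
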