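import Mathlib
import Cfsg.Agent.Lib.Helper45.S9Stmt

set_option autoImplicit false

/-! Tools for the explicit affine isometries of S3590 (pieces AP2, AP4, AR1):
the affine order of `(X, w)` from the order of `X`, and `rank (X - 1)` from `ker (X - 1)`. -/

namespace Cfsg.Agent.Lib.Helper1.S9Aff

open Cfsg.Agent.Lib.Helper45.S9Stmt

universe u

variable {F : Type u} [Field F] {ι : Type}

theorem sum_pow_mul (X : (ι → F) ≃ₗ[F] (ι → F)) (w : ι → F) (n : ℕ) (hn : X ^ n = 1) (m : ℕ) :
    ∑ i ∈ Finset.range (n * m), (X ^ i) w = m • ∑ i ∈ Finset.range n, (X ^ i) w := by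
  induction m with
  | zero => simp
  | succ m ih =>
    rw [Nat.mul_succ, Finset.sum_range_add, ih, succ_nsmul]
    congr 1
    apply Finset.sum_congr rfl
    intro i _
    rw [pow_add, pow_mul, hn, one_pow, one_mul]

/-- with `w = 0` the affine order is the order of `X` -/
theorem affD_zero (X : (ι → F) ≃ₗ[F] (ι → F)) : AffD X 0 (orderOf X) := by
  intro j
  rw [orderOf_dvd_iff_pow_eq_one]
  constructor
  · exact fun h => h.1
  · intro h
    exact ⟨h, by simp⟩

/-- characteristic 2: if `Σ_{i < ord X} X^i w ≠ 0` then the affine order is `2 ord X` -/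
theorem affD_double [CharP F 2] (X : (ι → F) ≃ₗ[F] (ι → F)) (w : ι → F)
    (hs : ∑ i ∈ Finset.range (orderOf X), (X ^ i) w ≠ 0) : AffD X w (2 * orderOf X) := by
  intro j
  constructor
  · rintro ⟨h1, h2⟩
    obtain ⟨m, rfl⟩ := orderOf_dvd_iff_pow_eq_one.mpr h1
    rw [sum_pow_mul X w _ (pow_orderOf_eq_one X), ← Nat.cast_smul_eq_nsmul F, smul_eq_zero] at h2
    rcases h2 with h2 | h2
    · rw [CharP.cast_eq_zero_iff F 2] at h2
      rw [mul_comm 2]
      exact Nat.mul_dvd_mul_left _ h2
    · exact absurd h2 hs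
  · rintro ⟨k, rfl⟩
    refine ⟨?_, ?_⟩
    · rw [mul_comm 2, mul_assoc, pow_mul, pow_orderOf_eq_one, one_pow]
    · rw [mul_comm 2, mul_assoc, sum_pow_mul X w _ (pow_orderOf_eq_one X),
        ← Nat.cast_smul_eq_nsmul F]
      have h0 : ((2 * k : ℕ) : F) = 0 := by
        rw [CharP.cast_eq_zero_iff F 2]
        exact dvd_mul_right 2 k
      rw [h0, zero_smul]

/-- if the fixed space of `X` is a line then `rank (X - 1) = dim - 1` -/
theorem rank_of_fixed_line [Fintype ι] (X : (ι → F) ≃ₗ[F] (ι → F)) (v0 : ι → F)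
    (hv0 : v0 ≠ 0) (hker : ∀ v, X v = v ↔ ∃ c : F, v = c • v0) :
    Module.finrank F (LinearMap.range (X.toLinearMap - LinearMap.id)) + 1 = Fintype.card ι := by
  have h := LinearMap.finrank_range_add_finrank_ker (X.toLinearMap - LinearMap.id)
  rw [Module.finrank_fintype_fun_eq_card] at h
  have hk : LinearMap.ker (X.toLinearMap - LinearMap.id) = Submodule.span F {v0} := by
    ext v
    rw [LinearMap.mem_ker, Submodule.mem_span_singleton, LinearMap.sub_apply, sub_eq_zero]
    simp only [LinearEquiv.coe_coe, LinearMap.id_apply]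
    rw [hker]
    constructor
    · rintro ⟨c, rfl⟩
      exact ⟨c, rfl⟩
    · rintro ⟨c, rfl⟩
      exact ⟨c, rfl⟩
  rw [hk, finrank_span_singleton hv0] at h
  exact h

end Cfsg.Agent.Lib.Helper1.S9Aff
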