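import Mathlib
import Cfsg.Agent.Lib.Helper45.S9Stmt
import Cfsg.Agent.Lib.Helper1.S9Aff

set_option autoImplicit false

/-! Piece AP2 of S3590: the swap of the hyperbolic plane, with the translations `(1, 0)` and `0`. -/

namespace Cfsg.Agent.Lib.Helper1.S9AP2

open Cfsg.Agent.Lib.Helper45.S9Stmt Cfsg.Agent.Lib.Helper1.S9Aff

universe u

theorem main : Cfsg.Agent.Lib.Helper45.S9Stmt.AP2.{u} := by
  intro F _ _
  let X : (Fin 1 ⊕ Fin 1 → F) ≃ₗ[F] (Fin 1 ⊕ Fin 1 → F) :=
    LinearEquiv.funCongrLeft F F (Equiv.sumComm (Fin 1) (Fin 1))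
  have hXa : ∀ (v : Fin 1 ⊕ Fin 1 → F) (j : Fin 1 ⊕ Fin 1),
      X v j = v (Equiv.sumComm (Fin 1) (Fin 1) j) := fun v j => rfl
  have hiso : ∀ v, Cfsg.quadFormPlus 1 F (X v) = Cfsg.quadFormPlus 1 F v := by
    intro v
    unfold Cfsg.quadFormPlus
    apply Finset.sum_congr rfl
    intro i _
    rw [hXa, hXa]
    simp only [Equiv.sumComm_apply, Sum.swap_inl, Sum.swap_inr]
    exact mul_comm _ _
  have h2 : X ^ 2 = 1 := by
    apply LinearEquiv.ext
    intro v
    funext j
    rw [pow_two, LinearEquiv.mul_apply, hXa, hXa]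
    simp
  have h1 : X ≠ 1 := by
    intro h
    have h3 := congrArg (fun Y : (Fin 1 ⊕ Fin 1 → F) ≃ₗ[F] (Fin 1 ⊕ Fin 1 → F) =>
      Y (Pi.single (Sum.inl 0) 1) (Sum.inl 0)) h
    simp only [hXa, LinearEquiv.coe_one, id_eq, Equiv.sumComm_apply, Sum.swap_inl,
      Pi.single_eq_same] at h3
    rw [Pi.single_apply] at h3
    simp at h3
  have ho : orderOf X = 2 := orderOf_eq_prime h2 h1
  -- the rank of `X - 1`
  have hrank : ((Module.finrank F (LinearMap.range (X.toLinearMap - LinearMap.id)) : ℕ) : ZMod 2)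
      = 1 := by
    have hr := rank_of_fixed_line X (fun _ => (1 : F)) (by
      intro h
      have := congrFun h (Sum.inl 0)
      simp at this) (by
      intro v
      constructor
      · intro hv
        refine ⟨v (Sum.inl 0), ?_⟩
        funext j
        rcases j with j | j
        · rw [Subsingleton.elim j 0]
          simp
        · rw [Subsingleton.elim j 0]
          have := congrFun hv (Sum.inl 0)
          rw [hXa] at this
          simp only [Equiv.sumComm_apply, Sum.swap_inl] at this
          rw [this]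
          simp
      · rintro ⟨c, rfl⟩
        funext j
        rw [hXa]
        simp)
    have hc : Fintype.card (Fin 1 ⊕ Fin 1) = 2 := by simp
    rw [hc] at hr
    have : Module.finrank F (LinearMap.range (X.toLinearMap - LinearMap.id)) = 1 := by omega
    rw [this]
    simp
  refine ⟨⟨X, Pi.single (Sum.inl 0) 1, hiso, ?_, hrank⟩, ⟨X, 0, hiso, ?_, hrank⟩⟩
  · have hd := affD_double X (Pi.single (Sum.inl 0) 1) (by
      rw [ho]
      intro h
      have h3 := congrFun h (Sum.inl 0)
      rw [Finset.sum_range_succ, Finset.sum_range_one, pow_zero, pow_one] at h3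
      simp only [Pi.add_apply, LinearEquiv.coe_one, id_eq, hXa, Equiv.sumComm_apply,
        Sum.swap_inl, Pi.single_eq_same, Pi.zero_apply] at h3
      rw [Pi.single_apply] at h3
      simp at h3)
    rw [ho] at hd
    exact hd
  · have hd := affD_zero X
    rw [ho] at hd
    exact hd

end Cfsg.Agent.Lib.Helper1.S9AP2
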