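import Mathlib
import Cfsg.Agent.Lib.Helper45.S9Stmt
import Cfsg.Agent.Lib.Helper91.S8P4
import Cfsg.Agent.Lib.Helper1.S9Aff

set_option autoImplicit false

/-! Piece AP4 of S3590: the 4-cycle of the coordinates of `H²` with the translation `(1,0,0,0)`. -/

namespace Cfsg.Agent.Lib.Helper1.S9AP4

open Cfsg.Agent.Lib.Helper45.S9Stmt Cfsg.Agent.Lib.Helper1.S9Aff Cfsg.Agent.Lib.Helper91.S8P4

universe u

theorem orbit : ∀ j : Fin 2 ⊕ Fin 2, j = Sum.inl 0 ∨ j = sig (Sum.inl 0) ∨
    j = sig (sig (Sum.inl 0)) ∨ j = sig (sig (sig (Sum.inl 0))) := by decide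

theorem main : Cfsg.Agent.Lib.Helper45.S9Stmt.AP4.{u} := by
  intro F _ _
  let X : (Fin 2 ⊕ Fin 2 → F) ≃ₗ[F] (Fin 2 ⊕ Fin 2 → F) :=
    LinearEquiv.funCongrLeft F F sigE
  have hXa : ∀ (v : Fin 2 ⊕ Fin 2 → F) (j : Fin 2 ⊕ Fin 2), X v j = v (sig j) :=
    fun v j => rfl
  have hiso : ∀ v, Cfsg.quadFormPlus 2 F (X v) = Cfsg.quadFormPlus 2 F v := by
    intro v
    unfold Cfsg.quadFormPlus
    rw [Fin.sum_univ_two, Fin.sum_univ_two, hXa, hXa, hXa, hXa]
    show v (Sum.inr 1) * v (Sum.inl 1) + v (Sum.inl 0) * v (Sum.inr 0) = _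
    ring
  have h4 : X ^ (2 ^ (1 + 1)) = 1 := by
    apply LinearEquiv.ext
    intro v
    funext j
    show (X ^ 4) v j = v j
    have e4 : X ^ 4 = X * X * X * X := by
      rw [pow_succ, pow_succ, pow_succ, pow_one]
    rw [e4, LinearEquiv.mul_apply, LinearEquiv.mul_apply, LinearEquiv.mul_apply, hXa, hXa, hXa,
      hXa, sig4]
  have h2 : ¬ X ^ (2 ^ 1) = 1 := by
    intro h
    have h3 := congrArg (fun Y : (Fin 2 ⊕ Fin 2 → F) ≃ₗ[F] (Fin 2 ⊕ Fin 2 → F) =>
      Y (Pi.single (Sum.inl 0) 1) (Sum.inl 0)) h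
    have e2 : X ^ (2 ^ 1) = X * X := by rw [pow_one, pow_two]
    rw [e2] at h3
    simp only [LinearEquiv.mul_apply, hXa, LinearEquiv.coe_one, id_eq, Pi.single_eq_same] at h3
    have e3 : sig (sig (Sum.inl 0)) = Sum.inr 0 := by decide
    rw [e3, Pi.single_apply] at h3
    simp at h3
  have ho : orderOf X = 4 := orderOf_eq_prime_pow h2 h4
  have hrank : ((Module.finrank F (LinearMap.range (X.toLinearMap - LinearMap.id)) : ℕ) : ZMod 2)
      = 1 := by
    have hr := rank_of_fixed_line X (fun _ => (1 : F)) (by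
      intro h
      have := congrFun h (Sum.inl 0)
      simp at this) (by
      intro v
      constructor
      · intro hv
        have hv' : ∀ j, v (sig j) = v j := by
          intro j
          have := congrFun hv j
          rw [hXa] at this
          exact this
        refine ⟨v (Sum.inl 0), ?_⟩
        funext j
        have hj : v j = v (Sum.inl 0) := by
          rcases orbit j with h | h | h | h
          · rw [h]
          · rw [h, hv']
          · rw [h, hv', hv']
          · rw [h, hv', hv', hv']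
        rw [hj]
        simp
      · rintro ⟨c, rfl⟩
        funext j
        rw [hXa]
        simp)
    have hc : Fintype.card (Fin 2 ⊕ Fin 2) = 4 := by simp
    rw [hc] at hr
    have : Module.finrank F (LinearMap.range (X.toLinearMap - LinearMap.id)) = 3 := by omega
    rw [this]
    rfl
  refine ⟨X, Pi.single (Sum.inl 0) 1, hiso, ?_, hrank⟩
  have hd := affD_double X (Pi.single (Sum.inl 0) 1) (by
    rw [ho]
    intro h
    have h3 := congrFun h (Sum.inl 0)
    have e2 : X ^ 2 = X * X := pow_two X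
    have e3 : X ^ 3 = X * X * X := by rw [pow_succ, pow_two]
    rw [Finset.sum_range_succ, Finset.sum_range_succ, Finset.sum_range_succ,
      Finset.sum_range_one, pow_zero, pow_one, e2, e3] at h3
    simp only [Pi.add_apply, LinearEquiv.mul_apply, LinearEquiv.coe_one, id_eq, hXa,
      Pi.zero_apply] at h3
    have s1 : sig (Sum.inl 0) = Sum.inr 1 := by decide
    have s2 : sig (Sum.inr 1) = Sum.inr 0 := by decide
    have s3 : sig (Sum.inr 0) = Sum.inl 1 := by decide
    rw [s1, s2, s3] at h3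
    simp at h3)
  rw [ho] at hd
  exact hd

end Cfsg.Agent.Lib.Helper1.S9AP4
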