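import Mathlib
import Cfsg.Agent.Lib.Helper45.S9Stmt
import Cfsg.Agent.Lib.Helper1.S9Aff

set_option autoImplicit false

/-! Piece AR1 of S3590: the transvection `(z₁, z₂) ↦ (z₁ + a z₂, z₂)` of the binary form. -/

namespace Cfsg.Agent.Lib.Helper1.S9AR1

open Cfsg.Agent.Lib.Helper45.S9Stmt Cfsg.Agent.Lib.Helper1.S9Aff

universe u

/-- the linear map `(z₁, z₂) ↦ (z₁ + a z₂, z₂)` -/
def tv {F : Type u} [Field F] (a : F) :
    ((Fin 0 ⊕ Fin 0) ⊕ Fin 2 → F) →ₗ[F] ((Fin 0 ⊕ Fin 0) ⊕ Fin 2 → F) where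
  toFun v := fun j => v j + (if j = Sum.inr 0 then a * v (Sum.inr 1) else 0)
  map_add' u v := by
    funext j
    by_cases hj : j = Sum.inr 0
    · simp only [Pi.add_apply, hj, if_true]
      ring
    · simp only [Pi.add_apply, hj, if_false]
      ring
  map_smul' c v := by
    funext j
    by_cases hj : j = Sum.inr 0
    · simp only [Pi.smul_apply, smul_eq_mul, hj, if_true, RingHom.id_apply]
      ring
    · simp only [Pi.smul_apply, smul_eq_mul, hj, if_false, RingHom.id_apply]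
      ring

theorem tv_apply {F : Type u} [Field F] (a : F) (v : (Fin 0 ⊕ Fin 0) ⊕ Fin 2 → F)
    (j : (Fin 0 ⊕ Fin 0) ⊕ Fin 2) :
    tv a v j = v j + (if j = Sum.inr 0 then a * v (Sum.inr 1) else 0) := rfl

theorem tv_inv {F : Type u} [Field F] [CharP F 2] (a : F) :
    Function.Involutive (tv a : ((Fin 0 ⊕ Fin 0) ⊕ Fin 2 → F) → _) := by
  intro v
  funext j
  rw [tv_apply, tv_apply, tv_apply]
  have h10 : (Sum.inr 1 : (Fin 0 ⊕ Fin 0) ⊕ Fin 2) ≠ Sum.inr 0 := by decide
  rw [if_neg h10, add_zero]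
  by_cases hj : j = Sum.inr 0
  · rw [if_pos hj, add_assoc, CharTwo.add_self_eq_zero, add_zero]
  · rw [if_neg hj, add_zero, add_zero]

theorem main : Cfsg.Agent.Lib.Helper45.S9Stmt.AR1.{u} := by
  intro F _ _ a b ha
  have h2 : (2 : F) = 0 := CharTwo.two_eq_zero
  have h10 : (Sum.inr 1 : (Fin 0 ⊕ Fin 0) ⊕ Fin 2) ≠ Sum.inr 0 := by decide
  let X : ((Fin 0 ⊕ Fin 0) ⊕ Fin 2 → F) ≃ₗ[F] ((Fin 0 ⊕ Fin 0) ⊕ Fin 2 → F) :=
    LinearEquiv.ofInvolutive (tv a) (tv_inv a)
  have hXa : ∀ (v : (Fin 0 ⊕ Fin 0) ⊕ Fin 2 → F) (j : (Fin 0 ⊕ Fin 0) ⊕ Fin 2),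
      X v j = v j + (if j = Sum.inr 0 then a * v (Sum.inr 1) else 0) := fun v j => rfl
  have hX0 : ∀ v : (Fin 0 ⊕ Fin 0) ⊕ Fin 2 → F,
      X v (Sum.inr 0) = v (Sum.inr 0) + a * v (Sum.inr 1) := by
    intro v
    rw [hXa, if_pos rfl]
  have hX1 : ∀ v : (Fin 0 ⊕ Fin 0) ⊕ Fin 2 → F, X v (Sum.inr 1) = v (Sum.inr 1) := by
    intro v
    rw [hXa, if_neg h10, add_zero]
  have hiso : ∀ v, Cfsg.quadFormMinus 0 F a b (X v) = Cfsg.quadFormMinus 0 F a b v := by
    intro v
    unfold Cfsg.quadFormMinus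
    rw [hX0, hX1]
    simp only [Finset.univ_eq_empty, Finset.sum_empty, zero_add]
    linear_combination (a * v (Sum.inr 0) * v (Sum.inr 1) + a ^ 2 * v (Sum.inr 1) ^ 2) * h2
  have hsq : X ^ 2 = 1 := by
    apply LinearEquiv.ext
    intro v
    rw [pow_two, LinearEquiv.mul_apply]
    exact tv_inv a v
  have h1 : X ≠ 1 := by
    intro h
    have h3 := congrArg (fun Y : ((Fin 0 ⊕ Fin 0) ⊕ Fin 2 → F) ≃ₗ[F] ((Fin 0 ⊕ Fin 0) ⊕ Fin 2 → F) =>
      Y (Pi.single (Sum.inr 1) 1) (Sum.inr 0)) h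
    simp only [hX0, LinearEquiv.coe_one, id_eq, Pi.single_eq_same, mul_one] at h3
    rw [Pi.single_apply, if_neg h10.symm, zero_add] at h3
    exact ha h3
  have ho : orderOf X = 2 := orderOf_eq_prime hsq h1
  have hrank : ((Module.finrank F (LinearMap.range (X.toLinearMap - LinearMap.id)) : ℕ) : ZMod 2)
      = 1 := by
    have hr := rank_of_fixed_line X (Pi.single (Sum.inr 0) (1 : F)) (by
      intro h
      have := congrFun h (Sum.inr 0)
      simp at this) (by
      intro v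
      constructor
      · intro hv
        have h3 := congrFun hv (Sum.inr 0)
        rw [hX0] at h3
        have h4 : v (Sum.inr 1) = 0 := by
          have : a * v (Sum.inr 1) = 0 := by linear_combination h3
          rcases mul_eq_zero.mp this with h | h
          · exact absurd h ha
          · exact h
        refine ⟨v (Sum.inr 0), ?_⟩
        funext j
        rcases j with j | j
        · rcases j with j | j
          · exact j.elim0
          · exact j.elim0
        · by_cases hj : j = 0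
          · rw [hj]
            simp
          · have hj1 : j = 1 := by omega
            rw [hj1, h4, Pi.smul_apply, Pi.single_apply, if_neg h10, smul_zero]
      · rintro ⟨c, rfl⟩
        funext j
        rw [hXa, Pi.smul_apply, Pi.smul_apply, Pi.single_apply (Sum.inr 0) (1 : F) (Sum.inr 1),
          if_neg h10, smul_zero, mul_zero]
        simp)
    have hc : Fintype.card ((Fin 0 ⊕ Fin 0) ⊕ Fin 2) = 2 := by simp
    rw [hc] at hr
    have : Module.finrank F (LinearMap.range (X.toLinearMap - LinearMap.id)) = 1 := by omega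
    rw [this]
    simp
  refine ⟨X, 0, hiso, ?_, hrank⟩
  have hd := affD_zero X
  rw [ho] at hd
  exact hd

end Cfsg.Agent.Lib.Helper1.S9AR1
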