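import Mathlib
import Cfsg.Agent.Lib.Helper96.SylAltBasic

/-!
# S2221 piece M1: for `N ⊴ ev S` inside `ev S` and an `S`-invariant `U` fixed pointwise by a
transposition of `S`, either `N` contains a nontrivial central element of `S` supported in `U`,
or `N` centralizes the even elements supported in `U`.
-/

set_option autoImplicit false

namespace Cfsg.Agent.Lib.Helper1.SAM1

open Equiv Cfsg.Agent.Lib.Lead.SylTwoSym Cfsg.Agent.Lib.Helper96.SylAltStmt
  Cfsg.Agent.Lib.Helper96.SylAltBasic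

theorem main : Cfsg.Agent.Lib.Helper96.SylAltStmt.M1' := by
  intro hPG Ω _ _ S hS N hN hNn U hU hτ'
  obtain ⟨τ, hτ, hτU⟩ := hτ'
  have hQmul : ∀ e f : Perm Ω, SupOn e U → SupOn f U → SupOn (e * f) U := by
    intro e f he hf a ha
    rw [Perm.mul_apply, hf a ha, he a ha]
  have hQinv : ∀ e : Perm Ω, SupOn e U → SupOn e⁻¹ U := by
    intro e he a ha
    rw [Perm.inv_eq_iff_eq]; exact (he a ha).symm
  have hQconj : ∀ s ∈ S, ∀ e : Perm Ω, SupOn e U → SupOn (s * e * s⁻¹) U := by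
    intro s hs e he a ha
    have h1 : s⁻¹ a ∉ U := inv_compl hU s⁻¹ (S.inv_mem hs) a ha
    simp only [Perm.mul_apply]
    rw [he _ h1]; simp
  have hevS : ∀ e ∈ ev S, e ∈ S := fun e he => (mem_ev.1 he).1
  have hevconj : ∀ s ∈ S, ∀ e ∈ ev S, s * e * s⁻¹ ∈ ev S := by
    intro s hs e he
    rw [mem_ev] at he ⊢
    refine ⟨S.mul_mem (S.mul_mem hs he.1) (S.inv_mem hs), ?_⟩
    rw [map_mul, map_mul, he.2, mul_one, ← map_mul, mul_inv_cancel, map_one]
  let gens : Set (Perm Ω) := {g | ∃ x ∈ N, ∃ e ∈ ev S, SupOn e U ∧ g = x * e * x⁻¹ * e⁻¹}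
  let M : Subgroup (Perm Ω) := Subgroup.closure gens
  have hgN : gens ⊆ N := by
    rintro g ⟨x, hx, e, he, -, rfl⟩
    have h1 : e * x⁻¹ * e⁻¹ ∈ N := hNn e he _ (N.inv_mem hx)
    have e1 : x * e * x⁻¹ * e⁻¹ = x * (e * x⁻¹ * e⁻¹) := by group
    rw [e1]
    exact N.mul_mem hx h1
  have hgQ : ∀ g ∈ gens, SupOn g U := by
    rintro g ⟨x, hx, e, he, heU, rfl⟩
    exact hQmul _ _ (hQconj x (hevS x (hN hx)) e heU) (hQinv e heU)
  have hMN : M ≤ N := (Subgroup.closure_le N).2 hgN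
  have hMQ : ∀ m ∈ M, SupOn m U := by
    intro m hm
    induction hm using Subgroup.closure_induction with
    | mem g hg => exact hgQ g hg
    | one => intro a _; rfl
    | mul a b _ _ iha ihb => exact hQmul a b iha ihb
    | inv a _ iha => exact hQinv a iha
  have hMconj_ev : ∀ q ∈ ev S, ∀ m ∈ M, q * m * q⁻¹ ∈ M := by
    intro q hq m hm
    induction hm using Subgroup.closure_induction with
    | mem g hg =>
      obtain ⟨x, hx, e, he, heU, rfl⟩ := hg
      apply Subgroup.subset_closure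
      refine ⟨q * x * q⁻¹, hNn q hq x hx, q * e * q⁻¹, hevconj q (hevS q hq) e he,
        hQconj q (hevS q hq) e heU, ?_⟩
      group
    | one => simp
    | mul a b _ _ iha ihb =>
      have e1 : q * (a * b) * q⁻¹ = (q * a * q⁻¹) * (q * b * q⁻¹) := by group
      rw [e1]
      exact M.mul_mem iha ihb
    | inv a _ iha =>
      have e1 : q * a⁻¹ * q⁻¹ = (q * a * q⁻¹)⁻¹ := by group
      rw [e1]
      exact M.inv_mem iha
  have hMconj : ∀ s ∈ S, ∀ m ∈ M, s * m * s⁻¹ ∈ M := by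
    intro s hs m hm
    rcases Int.units_eq_one_or (Perm.sign s) with h1 | h1
    · exact hMconj_ev s (mem_ev.2 ⟨hs, h1⟩) m hm
    · have hτm : τ * m * τ⁻¹ = m := by
        rw [← commute_of_supOn_fixOn (hMQ m hm) hτU, mul_inv_cancel_right]
      have hsτ : s * τ ∈ ev S := by
        rw [mem_ev]
        refine ⟨S.mul_mem hs hτ.1, ?_⟩
        rw [map_mul, h1, sign_of_mem_swapsIn hτ]
        simp
      have e1 : s * m * s⁻¹ = (s * τ) * m * (s * τ)⁻¹ := by
        have : (s * τ) * m * (s * τ)⁻¹ = s * (τ * m * τ⁻¹) * s⁻¹ := by group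
        rw [this, hτm]
      rw [e1]
      exact hMconj_ev _ hsτ m hm
  by_cases hM : M = ⊥
  · right
    intro x hx e he heU
    have h1 : x * e * x⁻¹ * e⁻¹ ∈ M := Subgroup.subset_closure ⟨x, hx, e, he, heU, rfl⟩
    rw [hM, Subgroup.mem_bot] at h1
    have h2 : x * e * x⁻¹ = e := mul_inv_eq_one.1 h1
    exact mul_inv_eq_iff_eq_mul.1 h2
  · left
    obtain ⟨x, hxM, hx1, hxc⟩ :=
      hPG (Perm Ω) S M hS.1 (fun m hm => hevS m (hN (hMN hm))) hM hMconj
    exact ⟨x, hMN hxM, hx1, hMQ x hxM, hxc⟩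

end Cfsg.Agent.Lib.Helper1.SAM1
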