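import Mathlib
import Cfsg.Agent.Lib.Helper96.SylAltBasic

/-!
# S2221 piece TRANSFER: a Sylow 2-subgroup of `A_n` is `ev S` for a maximal 2-subgroup `S` of
`Perm (Fin n)`, and decomposability transfers.
-/

set_option autoImplicit false

namespace Cfsg.Agent.Lib.Helper1.SATRANSFER

open Equiv Cfsg.Agent.Lib.Lead.SylTwoSym Cfsg.Agent.Lib.Helper96.SylAltStmt
  Cfsg.Agent.Lib.Helper96.SylAltBasic

/-- decomposability transfers along an injective homomorphism -/
theorem dec_map_iff {H G : Type*} [Group H] [Group G] (f : H →* G) (hf : Function.Injective f)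
    (Q : Subgroup H) : Dec Q ↔ Dec (Q.map f) := by
  constructor
  · rintro ⟨S₁, S₂, h1, h2, hle1, hle2, hc, hinf, hsup⟩
    refine ⟨S₁.map f, S₂.map f, ?_, ?_, Subgroup.map_mono hle1, Subgroup.map_mono hle2, ?_, ?_, ?_⟩
    · rw [Ne, Subgroup.map_eq_bot_iff_of_injective _ hf]; exact h1
    · rw [Ne, Subgroup.map_eq_bot_iff_of_injective _ hf]; exact h2
    · rintro _ ⟨a, ha, rfl⟩ _ ⟨b, hb, rfl⟩
      rw [← map_mul, ← map_mul, hc a ha b hb]
    · rw [← Subgroup.map_inf _ _ f hf, hinf, Subgroup.map_bot]
    · rw [← Subgroup.map_sup, hsup]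
  · rintro ⟨T₁, T₂, h1, h2, hle1, hle2, hc, hinf, hsup⟩
    have hr1 : T₁ ≤ f.range := hle1.trans (Subgroup.map_le_range f Q)
    have hr2 : T₂ ≤ f.range := hle2.trans (Subgroup.map_le_range f Q)
    refine ⟨T₁.comap f, T₂.comap f, ?_, ?_, ?_, ?_, ?_, ?_, ?_⟩
    · intro h
      apply h1
      rw [← Subgroup.map_comap_eq_self hr1, h, Subgroup.map_bot]
    · intro h
      apply h2
      rw [← Subgroup.map_comap_eq_self hr2, h, Subgroup.map_bot]
    · have := Subgroup.comap_mono (f := f) hle1
      rwa [Subgroup.comap_map_eq_self_of_injective hf] at this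
    · have := Subgroup.comap_mono (f := f) hle2
      rwa [Subgroup.comap_map_eq_self_of_injective hf] at this
    · intro a ha b hb
      apply hf
      rw [map_mul, map_mul]
      exact hc _ ha _ hb
    · rw [← Subgroup.comap_inf, hinf]
      ext x
      simp only [Subgroup.mem_comap, Subgroup.mem_bot]
      exact ⟨fun h => hf (by rw [h, map_one]), fun h => by rw [h, map_one]⟩
    · rw [Subgroup.comap_sup_eq_of_le_range f hr1 hr2, hsup,
        Subgroup.comap_map_eq_self_of_injective hf]

theorem main : Cfsg.Agent.Lib.Helper96.SylAltStmt.TRANSFER := by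
  intro n P
  have hinj : Function.Injective (alternatingGroup (Fin n)).subtype := Subgroup.subtype_injective _
  have hP' : IsPGroup 2 ((P : Subgroup (alternatingGroup (Fin n))).map (alternatingGroup (Fin n)).subtype) := P.isPGroup'.map (alternatingGroup (Fin n)).subtype
  obtain ⟨S₀, hS₀⟩ := hP'.exists_le_sylow
  refine ⟨(S₀ : Subgroup (Perm (Fin n))), max2_of_sylow S₀, ?_⟩
  have hPA : (P : Subgroup (alternatingGroup (Fin n))).map (alternatingGroup (Fin n)).subtype ≤ alternatingGroup (Fin n) := by
    have := Subgroup.map_le_range (alternatingGroup (Fin n)).subtype (P : Subgroup (alternatingGroup (Fin n)))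
    rwa [Subgroup.range_subtype] at this
  have hle : (P : Subgroup (alternatingGroup (Fin n))).map (alternatingGroup (Fin n)).subtype ≤ ev (S₀ : Subgroup (Perm (Fin n))) :=
    le_inf hS₀ hPA
  have hevA : ev (S₀ : Subgroup (Perm (Fin n))) ≤ (alternatingGroup (Fin n)).subtype.range := by
    rw [Subgroup.range_subtype]
    exact inf_le_right
  have hev2 : IsPGroup 2 (ev (S₀ : Subgroup (Perm (Fin n)))) :=
    S₀.isPGroup'.to_le inf_le_left
  have hcomap2 : IsPGroup 2 ((ev (S₀ : Subgroup (Perm (Fin n)))).comap (alternatingGroup (Fin n)).subtype) :=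
    hev2.comap_of_injective (alternatingGroup (Fin n)).subtype hinj
  have hPle : (P : Subgroup (alternatingGroup (Fin n))) ≤ (ev (S₀ : Subgroup (Perm (Fin n)))).comap (alternatingGroup (Fin n)).subtype := by
    rw [← Subgroup.map_le_iff_le_comap]
    exact hle
  have hcomap : (ev (S₀ : Subgroup (Perm (Fin n)))).comap (alternatingGroup (Fin n)).subtype = P :=
    P.is_maximal' hcomap2 hPle
  have heq : ev (S₀ : Subgroup (Perm (Fin n))) = (P : Subgroup (alternatingGroup (Fin n))).map (alternatingGroup (Fin n)).subtype := by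
    rw [← hcomap, Subgroup.map_comap_eq_self hevA]
  rw [heq]
  exact dec_map_iff (alternatingGroup (Fin n)).subtype hinj _

end Cfsg.Agent.Lib.Helper1.SATRANSFER
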