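import Mathlib
import Cfsg.Agent.Lib.Helper44.SMStmt

/-!
# S2721 piece FIX: an isometry of order prime to the characteristic fixing a nonzero vector
fixes a nonsingular vector `u`, and the reflection in `u` commutes with it.
-/

set_option autoImplicit false

namespace Cfsg.Agent.Lib.Helper1.SMFIX

open Matrix
open Cfsg.Agent.Lib.Helper44.QSpace Cfsg.Agent.Lib.Helper44.OGroup Cfsg.Agent.Lib.Helper44.OMat
open Cfsg.Agent.Lib.Helper45.OmegaAut Cfsg.Agent.Lib.Helper45.OmegaAutPsi
open Cfsg.Agent.Lib.Helper45.OmegaAutMain Cfsg.Agent.Lib.Helper45.OmegaInndiag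
open Cfsg.Agent.Lib.Helper44.SMStmt

universe u

theorem main : FixRefl.{u} := by
  intro F _ _ ι _ _ Q h2 hS s hs r hr hsr ⟨v, hv0, hv⟩
  set S : Matrix ι ι F := ((s : GL ι F) : Matrix ι ι F) with hSdef
  have hQ : ∀ x : ι → F, Q (S *ᵥ x) = Q x := fun x => hs x x
  have hpol : ∀ x y : ι → F, QuadraticMap.polar (⇑Q) (S *ᵥ x) (S *ᵥ y)
      = QuadraticMap.polar (⇑Q) x y := by
    intro x y
    unfold QuadraticMap.polar
    rw [← Matrix.mulVec_add, hQ, hQ, hQ]
  have hSr : S ^ r = 1 := by
    have := congrArg (fun g : ↥(Cfsg.Geo.quadSimilarityGroup (F := F) ⇑Q) =>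
      ((g : GL ι F) : Matrix ι ι F)) hsr
    simpa using this
  -- a fixed nonsingular vector
  have hex : ∃ u : ι → F, Q u ≠ 0 ∧ S *ᵥ u = u := by
    by_cases hQv : Q v = 0
    · obtain ⟨w, hw⟩ : ∃ w, QuadraticMap.polar (⇑Q) v w ≠ 0 := by
        by_contra hcon
        push Not at hcon
        exact hv0 (hS v hcon)
      set f : ℕ → ι → F := fun i => (S ^ i) *ᵥ w with hf
      set u₁ : ι → F := ∑ i ∈ Finset.range r, f i with hu₁
      have hfix : S *ᵥ u₁ = u₁ := by
        have e1 : S *ᵥ u₁ = ∑ i ∈ Finset.range r, f (i + 1) := by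
          rw [hu₁]
          have := map_sum (Matrix.mulVecLin S) f (Finset.range r)
          simp only [Matrix.mulVecLin_apply] at this
          rw [this]
          apply Finset.sum_congr rfl
          intro i _
          rw [hf]
          simp only
          rw [Matrix.mulVec_mulVec, ← pow_succ']
        have h1 := Finset.sum_range_succ' f r
        have h2 := Finset.sum_range_succ f r
        have h3 : f r = f 0 := by
          rw [hf]; simp only; rw [hSr, pow_zero]
        rw [e1]
        rw [h2, h3] at h1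
        exact (add_right_cancel h1).symm
      have hterm : ∀ i : ℕ, QuadraticMap.polar (⇑Q) v (f i) = QuadraticMap.polar (⇑Q) v w := by
        intro i
        induction i with
        | zero => rw [hf]; simp
        | succ i ih =>
          have e : f (i + 1) = S *ᵥ f i := by
            rw [hf]; simp only; rw [Matrix.mulVec_mulVec, ← pow_succ']
          rw [e]
          have h := hpol v (f i)
          rw [hv] at h
          rw [h, ih]
      have hpu : QuadraticMap.polar (⇑Q) v u₁ = (r : F) * QuadraticMap.polar (⇑Q) v w := by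
        have := map_sum (QuadraticMap.polarBilin Q v) f (Finset.range r)
        simp only [QuadraticMap.polarBilin_apply_apply] at this
        rw [hu₁, this, Finset.sum_congr rfl (fun i _ => hterm i), Finset.sum_const,
          Finset.card_range, nsmul_eq_mul]
      have hpu0 : QuadraticMap.polar (⇑Q) v u₁ ≠ 0 := by
        rw [hpu]; exact mul_ne_zero hr hw
      by_cases hQu : Q u₁ = 0
      · refine ⟨u₁ + v, ?_, ?_⟩
        · have e : Q (u₁ + v) = QuadraticMap.polar (⇑Q) u₁ v + Q u₁ + Q v := by
            unfold QuadraticMap.polar; ring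
          rw [e, hQu, hQv, add_zero, add_zero, QuadraticMap.polar_comm]
          exact hpu0
        · rw [Matrix.mulVec_add, hfix, hv]
      · exact ⟨u₁, hQu, hfix⟩
    · exact ⟨v, hQv, hv⟩
  obtain ⟨u, hQu, hu⟩ := hex
  refine ⟨u, hQu, ?_⟩
  apply Subtype.ext
  apply Units.ext
  show (((rfl' Q u : ↥(Cfsg.Geo.quadSimilarityGroup (F := F) ⇑Q)) : GL ι F) : Matrix ι ι F) * S
    = S * (((rfl' Q u : ↥(Cfsg.Geo.quadSimilarityGroup (F := F) ⇑Q)) : GL ι F) : Matrix ι ι F)
  apply Matrix.toLin'.injective
  apply LinearMap.ext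
  intro x
  rw [Matrix.toLin'_apply, Matrix.toLin'_apply, ← Matrix.mulVec_mulVec, ← Matrix.mulVec_mulVec,
    rfl'_mulVec, rfl'_mulVec, reflE_apply, reflE_apply, Matrix.mulVec_sub, Matrix.mulVec_smul, hu]
  have h := hpol x u
  rw [hu] at h
  rw [h]

end Cfsg.Agent.Lib.Helper1.SMFIX
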