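import Mathlib
import Cfsg.Agent.Lib.Helper44.SMStmt

/-!
# S2721 piece LIFT: an automorphism `x` induced by a similarity with `x ^ r = 1`, `r` odd, is
induced by an isometry `s` with `s ^ r = 1`.
-/

set_option autoImplicit false

namespace Cfsg.Agent.Lib.Helper1.SMLIFT

open Matrix
open Cfsg.Agent.Lib.Helper44.QSpace Cfsg.Agent.Lib.Helper44.OGroup Cfsg.Agent.Lib.Helper44.OMat
open Cfsg.Agent.Lib.Helper45.OmegaAut Cfsg.Agent.Lib.Helper45.OmegaAutPsi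
open Cfsg.Agent.Lib.Helper45.OmegaAutMain Cfsg.Agent.Lib.Helper45.OmegaInndiag
open Cfsg.Agent.Lib.Helper45.OmegaAutKer
open Cfsg.Agent.Lib.Helper44.SMStmt

universe u

theorem main : Lift.{u} := by
  intro F _ _ ι _ _ Q h2 hS hn x hx r hr hxr
  rw [pgo_eq] at hx
  obtain ⟨g, rfl⟩ := hx
  obtain ⟨v₀, hv₀⟩ : ∃ v₀ : ι → F, Q v₀ ≠ 0 := by
    by_contra hcon
    push Not at hcon
    have hι : Nonempty ι := by
      rw [← Fintype.card_pos_iff]; omega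
    obtain ⟨i⟩ := hι
    have h0 : (Pi.single i (1:F) : ι → F) = 0 := hS _ (fun y => by
      unfold QuadraticMap.polar; rw [hcon, hcon, hcon]; ring)
    have := congrFun h0 i
    simp at this
  set μ : Fˣ := mu Q g with hμ
  let z : ↥(Cfsg.Geo.quadSimilarityGroup (F := F) ⇑Q) := ⟨sc μ⁻¹, sc_mem Q μ⁻¹⟩
  have hz : Phi ⇑Q z = 1 :=
    Phi_eq_one_of_scalar ⇑Q z ((μ⁻¹ : Fˣ) : F) (fun v => sc_mulVec μ⁻¹ v)
  set h : ↥(Cfsg.Geo.quadSimilarityGroup (F := F) ⇑Q) := g * g * z with hh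
  have hiso : (h : GL ι F) ∈ Cfsg.isometryGroup F ⇑Q := by
    rw [mem_iso_iff']
    intro v
    show Q ((((g : GL ι F) * (g : GL ι F) * (sc μ⁻¹ : GL ι F) : GL ι F) : Matrix ι ι F) *ᵥ v) = Q v
    rw [Units.val_mul, Units.val_mul, ← Matrix.mulVec_mulVec, ← Matrix.mulVec_mulVec, mu_spec,
      mu_spec, sc_mulVec, QuadraticMap.map_smul, smul_eq_mul]
    have e : ((μ⁻¹ : Fˣ) : F) = (μ : F)⁻¹ := Units.val_inv_eq_inv_val μ
    have hμ0 : (μ : F) ≠ 0 := μ.ne_zero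
    rw [e, ← hμ]
    field_simp
  have hPh : Phi ⇑Q h = Phi ⇑Q g * Phi ⇑Q g := by
    rw [hh, map_mul, map_mul, hz, mul_one]
  obtain ⟨m, hm⟩ := hr
  have hiso₀ : ∀ k : ℕ, ((h ^ k : ↥(Cfsg.Geo.quadSimilarityGroup (F := F) ⇑Q)) : GL ι F)
      ∈ Cfsg.isometryGroup F ⇑Q := fun k => by
    rw [Subgroup.coe_pow]; exact Subgroup.pow_mem _ hiso k
  set s₀ : ↥(Cfsg.Geo.quadSimilarityGroup (F := F) ⇑Q) := h ^ (m + 1) with hs₀
  have hPs₀ : Phi ⇑Q s₀ = Phi ⇑Q g := by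
    rw [hs₀, map_pow, hPh, ← pow_two, ← pow_mul]
    have e : 2 * (m + 1) = r + 1 := by omega
    rw [e, pow_succ, hxr, one_mul]
  have hP1 : Phi ⇑Q (s₀ ^ r) = 1 := by rw [map_pow, hPs₀, hxr]
  obtain ⟨c, hc⟩ := scalar_of_Phi_eq_one h2 Q hS hn (s₀ ^ r) hP1
  have hc2 : c ^ 2 = 1 := by
    have hi : ((s₀ ^ r : ↥(Cfsg.Geo.quadSimilarityGroup (F := F) ⇑Q)) : GL ι F)
        ∈ Cfsg.isometryGroup F ⇑Q := by
      rw [hs₀, ← pow_mul]; exact hiso₀ _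
    have h1 := (mem_iso_iff' ⇑Q _).1 hi v₀
    rw [hc, QuadraticMap.map_smul, smul_eq_mul] at h1
    have h3 : (c * c - 1) * Q v₀ = 0 := by rw [sub_mul, h1, one_mul, sub_self]
    rcases mul_eq_zero.1 h3 with h4 | h4
    · rw [pow_two]; exact sub_eq_zero.1 h4
    · exact absurd h4 hv₀
  refine ⟨s₀ ^ (r + 1), ?_, ?_, ?_⟩
  · rw [hs₀, ← pow_mul]; exact hiso₀ _
  · rw [← pow_mul, mul_comm, pow_mul]
    apply Subtype.ext
    apply Units.ext
    rw [Subgroup.coe_pow, Units.val_pow_eq_pow_val, Subgroup.coe_one, Units.val_one]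
    have hM : (((s₀ ^ r : ↥(Cfsg.Geo.quadSimilarityGroup (F := F) ⇑Q)) : GL ι F) : Matrix ι ι F)
        = c • (1 : Matrix ι ι F) := by
      apply Cfsg.Agent.Lib.Helper44.OMat.matrix_ext_mulVec
      intro v
      rw [hc, Matrix.smul_mulVec, Matrix.one_mulVec]
    rw [hM, smul_pow, one_pow]
    have e : c ^ (r + 1) = 1 := by
      have e' : r + 1 = 2 * (m + 1) := by omega
      rw [e', pow_mul, hc2, one_pow]
    rw [e, one_smul]
  · rw [map_pow, hPs₀, pow_succ, hxr, one_mul]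

end Cfsg.Agent.Lib.Helper1.SMLIFT
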